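import Cfsg.Agent.Lib.EqConj.Core

/-!
# The embedding into the semi-affine group
-/

set_option autoImplicit false
set_option linter.unusedSectionVars false
set_option linter.style.haveILetI false

namespace Cfsg.Agent.Lib.EqConj.Aff

open Module Subgroup
open Cfsg.Agent.Lib.EqConj.Count Cfsg.Agent.Lib.EqConj.Lin Cfsg.Agent.Lib.EqConj.Core

universe u

variable {p : ℕ} [hp : Fact p.Prime] {M : Type u} [Group M] [Finite M] {Q : Subgroup M}
  (hE : Cfsg.IsElementaryAbelian p Q) [hn : Q.Normal] {n : ℕ}
  (D : Data n (AA hE)) {C : Subgroup M} (hC : IsComplement' Q C) (hker : (rho hE).ker = Q)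

/-- the multiplier on `M` -/
noncomputable def aM (m : M) : GaloisField p n := D.a ((rho hE).rangeRestrict m)
/-- the field automorphism on `M` -/
noncomputable def sM (m : M) : GaloisField p n ≃+* GaloisField p n := D.σ ((rho hE).rangeRestrict m)

theorem aM_ne (m : M) : aM hE D m ≠ 0 := D.ha _

theorem spec_M (m : M) (v : VV hE) : D.e (rho hE m v) = aM hE D m * sM hE D m (D.e v) :=
  D.spec ((rho hE).rangeRestrict m) v

theorem mul_M (m m' : M) : aM hE D (m * m') = aM hE D m * sM hE D m (aM hE D m') ∧
    sM hE D (m * m') = sM hE D m * sM hE D m' := by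
  unfold aM sM
  rw [map_mul]
  exact D.mul _ _

theorem sM_one : sM hE D 1 = 1 := by
  have := D.sigmaHom.map_one
  unfold sM
  rw [map_one]
  exact this

theorem aM_one : aM hE D 1 = 1 := by
  have h5 := (mul_M hE D 1 1).1
  rw [mul_one, sM_one] at h5
  have h7 : aM hE D (1 : M) * 1 = aM hE D 1 * aM hE D 1 := by
    rw [mul_one]
    exact h5
  exact (mul_left_cancel₀ (aM_ne hE D 1) h7).symm

include hker in
theorem eq_of_ker {m m' : M} (h : m⁻¹ * m' ∈ Q) : rho hE m = rho hE m' := by
  rw [← hker, MonoidHom.mem_ker, map_mul, map_inv, inv_mul_eq_one] at h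
  exact h

include hker in
theorem aM_congr {m m' : M} (h : m⁻¹ * m' ∈ Q) : aM hE D m = aM hE D m' := by
  unfold aM
  congr 1
  exact Subtype.ext (eq_of_ker hE hker h)

include hker in
theorem sM_congr {m m' : M} (h : m⁻¹ * m' ∈ Q) : sM hE D m = sM hE D m' := by
  unfold sM
  congr 1
  exact Subtype.ext (eq_of_ker hE hker h)

/-- the decomposition -/
noncomputable def dec : Q × C ≃ M := Equiv.ofBijective _ hC

theorem dec_apply (x : Q × C) : dec hC x = (x.1 : M) * (x.2 : M) := rfl

theorem dec_symm_mul (q : Q) (c : C) : (dec hC).symm ((q : M) * c) = (q, c) :=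
  (dec hC).symm_apply_apply (q, c)

/-- the translation part -/
noncomputable def tau (m : M) : GaloisField p n := D.e (toV hE ((dec hC).symm m).1)

include hker in
theorem tau_mul (m m' : M) :
    tau hE D hC (m * m') = tau hE D hC m + aM hE D m * sM hE D m (tau hE D hC m') := by
  obtain ⟨⟨q, c⟩, rfl⟩ := (dec hC).surjective m
  obtain ⟨⟨q', c'⟩, rfl⟩ := (dec hC).surjective m'
  have hq : (c : M) * q' * (c : M)⁻¹ ∈ Q := hn.conj_mem _ q'.2 _
  have h1 : dec hC (q, c) * dec hC (q', c') =
      ((q * ⟨_, hq⟩ : Q) : M) * ((c * c' : C) : M) := by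
    rw [dec_apply, dec_apply]
    show (q : M) * c * ((q' : M) * c') = (q : M) * ((c : M) * q' * (c : M)⁻¹) * ((c : M) * c')
    group
  have h2 : (rho hE) (dec hC (q, c)) = rho hE (c : M) := by
    rw [dec_apply]
    symm
    apply eq_of_ker hE hker
    show (c : M)⁻¹ * ((q : M) * c) ∈ Q
    rw [← mul_assoc]
    exact hn.conj_mem' _ q.2 _
  unfold tau
  rw [h1, dec_symm_mul, Equiv.symm_apply_apply, Equiv.symm_apply_apply]
  simp only
  rw [toV_mul, map_add]
  congr 1
  have h3 : toV hE ⟨_, hq⟩ = rho hE (c : M) (toV hE q') := rfl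
  rw [h3, ← h2, spec_M]

theorem tau_one : tau hE D hC (1 : M) = 0 := by
  unfold tau
  have : (1 : M) = ((1 : Q) : M) * ((1 : C) : M) := by simp
  rw [this, dec_symm_mul]
  simp only
  rw [toV_one, map_zero]

include hker in
/-- the homomorphism to the endomorphisms -/
noncomputable def phiE : M →* Function.End (GaloisField p n) where
  toFun m := fun x => tau hE D hC m + aM hE D m * sM hE D m x
  map_one' := by
    funext x
    show tau hE D hC 1 + aM hE D 1 * sM hE D 1 x = x
    rw [tau_one, aM_one, sM_one]
    simp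
  map_mul' := by
    intro m m'
    funext x
    show tau hE D hC (m * m') + aM hE D (m * m') * sM hE D (m * m') x =
      tau hE D hC m + aM hE D m * sM hE D m (tau hE D hC m' + aM hE D m' * sM hE D m' x)
    rw [tau_mul hE D hC hker, (mul_M hE D m m').1, (mul_M hE D m m').2, map_add, map_mul]
    have h1 : (sM hE D m * sM hE D m') x = sM hE D m (sM hE D m' x) := rfl
    rw [h1]
    ring

/-- the homomorphism to the permutations -/
noncomputable def phi : M →* Equiv.Perm (GaloisField p n) := (phiE hE D hC hker).toHomPerm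

theorem phi_apply (m : M) (x : GaloisField p n) :
    phi hE D hC hker m x = tau hE D hC m + aM hE D m * sM hE D m x := rfl

include hker in
theorem phi_inj : Function.Injective (phi hE D hC hker) := by
  rw [injective_iff_map_eq_one]
  intro m hm
  have h1 : ∀ x, tau hE D hC m + aM hE D m * sM hE D m x = x := fun x => by
    have := congrArg (fun f : Equiv.Perm (GaloisField p n) => f x) hm
    simpa [phi_apply] using this
  have h2 : tau hE D hC m = 0 := by simpa using h1 0
  obtain ⟨⟨q, c⟩, rfl⟩ := (dec hC).surjective m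
  have h3 : q = 1 := by
    unfold tau at h2
    rw [Equiv.symm_apply_apply] at h2
    have h4 : toV hE q = 0 := (map_eq_zero_iff D.e D.e.injective).mp h2
    exact h4
  rw [h2] at h1
  subst h3
  simp only [zero_add] at h1
  have h5 := h1 1
  rw [map_one, mul_one] at h5
  have h6 : sM hE D (dec hC (1, c)) = 1 := by
    ext x
    have h7 := h1 x
    rw [h5, one_mul] at h7
    exact h7
  have h8 : (rho hE).rangeRestrict (dec hC (1, c)) = 1 := D.eq_one_of _ h5 h6
  have h9 : dec hC (1, c) ∈ Q := by
    have h9' : dec hC (1, c) ∈ (rho hE).ker := by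
      rw [MonoidHom.mem_ker]
      exact congrArg Subtype.val h8
    rwa [hker] at h9'
  have h10 : (c : M) ∈ Q := by
    have : dec hC (1, c) = (c : M) := by
      rw [dec_apply]
      simp
    rwa [this] at h9
  have h11 : (c : M) = 1 := by
    have := hC.disjoint
    exact Subgroup.disjoint_def.mp this h10 c.2
  have h12 : c = 1 := Subtype.ext h11
  subst h12
  rw [dec_apply]
  simp

theorem phi_mem (m : M) : phi hE D hC hker m ∈ Cfsg.semiaffineGroup (GaloisField p n) :=
  ⟨Units.mk0 (aM hE D m) (aM_ne hE D m), tau hE D hC m, sM hE D m, fun x => by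
    rw [phi_apply]
    show _ = _ * _ + _
    rw [add_comm]
    rfl⟩

theorem phi_mem_aff (hs : ∀ m, sM hE D m = 1) (m : M) :
    phi hE D hC hker m ∈ Cfsg.affineGroup (GaloisField p n) :=
  ⟨Units.mk0 (aM hE D m) (aM_ne hE D m), tau hE D hC m, fun x => by
    rw [phi_apply, hs m, add_comm]
    rfl⟩

end Cfsg.Agent.Lib.EqConj.Aff

namespace Cfsg.Agent.Lib.EqConj.Aff

/-- The order of the semi-affine group. -/
theorem card_semi_le (F : Type*) [Field F] [Finite F] :
    Nat.card (Cfsg.semiaffineGroup F) ≤ (Nat.card F - 1) * Nat.card F * Nat.card (F ≃+* F) := by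
  classical
  letI : Fintype F := Fintype.ofFinite _
  have hc : Nat.card Fˣ = Nat.card F - 1 := by
    rw [Nat.card_eq_fintype_card, Fintype.card_units, ← Nat.card_eq_fintype_card]
  haveI : Finite (F ≃+* F) :=
    Finite.of_injective (fun σ => (σ : F → F)) (fun a b h => RingEquiv.ext (congrFun h))
  rw [← hc, ← Nat.card_prod, ← Nat.card_prod]
  choose a b φ hs using (fun s : Cfsg.semiaffineGroup F => s.2)
  apply Nat.card_le_card_of_injective (fun s => ((a s, b s), φ s))
  intro s t h
  have h1 := congrArg (fun x => x.1.1) h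
  have h2 := congrArg (fun x => x.1.2) h
  have h3 := congrArg (fun x => x.2) h
  simp only at h1 h2 h3
  apply Subtype.ext
  ext x
  rw [hs, hs, h1, h2, h3]

/-- The order of the affine group. -/
theorem card_aff_le (F : Type*) [Field F] [Finite F] :
    Nat.card (Cfsg.affineGroup F) ≤ (Nat.card F - 1) * Nat.card F := by
  classical
  letI : Fintype F := Fintype.ofFinite _
  have hc : Nat.card Fˣ = Nat.card F - 1 := by
    rw [Nat.card_eq_fintype_card, Fintype.card_units, ← Nat.card_eq_fintype_card]
  rw [← hc, ← Nat.card_prod]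
  choose a b hs using (fun s : Cfsg.affineGroup F => s.2)
  apply Nat.card_le_card_of_injective (fun s => (a s, b s))
  intro s t h
  have h1 := congrArg (fun x => x.1) h
  have h2 := congrArg (fun x => x.2) h
  simp only at h1 h2
  apply Subtype.ext
  ext x
  rw [hs, hs, h1, h2]

end Cfsg.Agent.Lib.EqConj.Aff
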