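import Mathlib

/-!
# Arithmetic and counting for groups transitive on subspaces
-/

set_option autoImplicit false

namespace Cfsg.Agent.Lib.EqConj.Arith

open Module

theorem arith_aux (p n : ℕ) (hp : 3 ≤ p) (hn : 6 ≤ n) :
    n * ((p ^ 2 - 1) * (p - 1)) + 1 < p ^ (n - 1) := by
  induction n, hn using Nat.le_induction with
  | base =>
    have h1 : (p ^ 2 - 1) * (p - 1) + 1 ≤ p ^ 3 := by
      obtain ⟨q, rfl⟩ : ∃ q, p = q + 1 := ⟨p - 1, by omega⟩
      have e : (q + 1) ^ 2 - 1 = q ^ 2 + 2 * q := by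
        have : (q + 1) ^ 2 = q ^ 2 + 2 * q + 1 := by ring
        omega
      rw [e, Nat.add_sub_cancel]
      nlinarith [sq_nonneg q]
    have h2 : p ^ 5 = p ^ 3 * p ^ 2 := by ring
    have h3 : 9 ≤ p ^ 2 := by nlinarith
    have h4 : 1 ≤ p ^ 3 := Nat.one_le_pow _ _ (by omega)
    show 6 * ((p ^ 2 - 1) * (p - 1)) + 1 < p ^ 5
    rw [h2]
    nlinarith
  | succ n hn ih =>
    have h1 : p ^ (n + 1 - 1) = p ^ (n - 1) * p := by
      have : n + 1 - 1 = n - 1 + 1 := by omega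
      rw [this, pow_succ]
    rw [h1]
    generalize (p ^ 2 - 1) * (p - 1) = X at ih ⊢
    generalize p ^ (n - 1) = P at ih ⊢
    have h3 : P * 3 ≤ P * p := Nat.mul_le_mul_left _ hp
    have h4 : (n + 1) * X ≤ 3 * (n * X) := by
      have : X ≤ n * X := Nat.le_mul_of_pos_left _ (by omega)
      nlinarith
    omega

theorem arith_aux2 (n : ℕ) (hn : 6 ≤ n) : n * 3 + 1 < 2 ^ (n - 1) := by
  induction n, hn using Nat.le_induction with
  | base => norm_num
  | succ n hn ih =>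
    have h1 : 2 ^ (n + 1 - 1) = 2 ^ (n - 1) * 2 := by
      have : n + 1 - 1 = n - 1 + 1 := by omega
      rw [this, pow_succ]
    rw [h1]
    omega

/-- The arithmetic condition for a subgroup of `ΓL₁(p^n)` transitive on the 2-subspaces. -/
theorem arith (p n : ℕ) (hp : 2 ≤ p) (hn : 3 ≤ n)
    (h : p ^ (n - 1) - 1 ∣ n * ((p ^ 2 - 1) * (p - 1))) : n = 3 ∨ (n = 5 ∧ (p = 2 ∨ p = 3)) := by
  obtain ⟨q, rfl⟩ : ∃ q, p = q + 2 := ⟨p - 2, by omega⟩
  have hpos : 0 < n * (((q + 2) ^ 2 - 1) * (q + 2 - 1)) := by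
    have h1 : 0 < (q + 2) ^ 2 - 1 := by
      have : 4 ≤ (q + 2) ^ 2 := by nlinarith
      omega
    have h2 : 0 < q + 2 - 1 := by omega
    positivity
  have hle := Nat.le_of_dvd hpos h
  by_cases h3 : n = 3
  · exact Or.inl h3
  by_cases h4 : n = 4
  · exfalso
    subst h4
    -- p^3 - 1 ∣ 4 (p^2-1)(p-1)
    have e1 : (q + 2) ^ (4 - 1) - 1 = (q + 1) * ((q + 2) ^ 2 + (q + 2) + 1) := by
      have : (q + 2) ^ (4 - 1) = (q + 1) * ((q + 2) ^ 2 + (q + 2) + 1) + 1 := by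
        show (q + 2) ^ 3 = _
        ring
      omega
    have e2 : (q + 2) ^ 2 - 1 = (q + 1) * (q + 3) := by
      have : (q + 2) ^ 2 = (q + 1) * (q + 3) + 1 := by ring
      omega
    have e3 : q + 2 - 1 = q + 1 := by omega
    rw [e1, e2, e3] at h
    have h5 : (q + 2) ^ 2 + (q + 2) + 1 ∣ 4 * ((q + 1) * (q + 3)) := by
      have h6 : (q + 1) * ((q + 2) ^ 2 + (q + 2) + 1) ∣ (q + 1) * (4 * ((q + 1) * (q + 3))) := by
        have : 4 * ((q + 1) * (q + 3) * (q + 1)) = (q + 1) * (4 * ((q + 1) * (q + 3))) := by ring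
        rw [← this]
        exact h
      exact Nat.dvd_of_mul_dvd_mul_left (by omega) h6
    -- d ∣ 12
    have h7 : (q + 2) ^ 2 + (q + 2) + 1 ∣ 12 := by
      have e4 : 4 * ((q + 2) ^ 2 + (q + 2) + 1) = 4 * ((q + 1) * (q + 3)) * 1 + 4 * (q + 4) := by ring
      have h8 : (q + 2) ^ 2 + (q + 2) + 1 ∣ 4 * (q + 4) := by
        have h9 : (q + 2) ^ 2 + (q + 2) + 1 ∣ 4 * ((q + 1) * (q + 3)) * 1 + 4 * (q + 4) := by
          rw [← e4]
          exact Dvd.intro_left 4 rfl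
        exact (Nat.dvd_add_right (by simpa using h5)).mp h9
      have e6 : 4 * (q + 4) * (q + 1) + 12 = 4 * ((q + 2) ^ 2 + (q + 2) + 1) := by ring_nf
      have h10 : (q + 2) ^ 2 + (q + 2) + 1 ∣ 4 * (q + 4) * (q + 1) + 12 := by
        rw [e6]
        exact Dvd.intro_left 4 rfl
      exact (Nat.dvd_add_right (Dvd.dvd.mul_right h8 _)).mp h10
    have h11 := Nat.le_of_dvd (by norm_num) h7
    have h12 : q ≤ 1 := by nlinarith
    interval_cases q <;> omega
  by_cases h5 : n = 5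
  · subst h5
    refine Or.inr ⟨rfl, ?_⟩
    have e1 : (q + 2) ^ (5 - 1) - 1 = ((q + 1) * (q + 3)) * ((q + 2) ^ 2 + 1) := by
      have : (q + 2) ^ (5 - 1) = ((q + 1) * (q + 3)) * ((q + 2) ^ 2 + 1) + 1 := by
        show (q + 2) ^ 4 = _
        ring
      omega
    have e2 : (q + 2) ^ 2 - 1 = (q + 1) * (q + 3) := by
      have : (q + 2) ^ 2 = (q + 1) * (q + 3) + 1 := by ring
      omega
    have e3 : q + 2 - 1 = q + 1 := by omega
    rw [e1, e2, e3] at h
    have h6 : (q + 2) ^ 2 + 1 ∣ 5 * (q + 1) := by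
      have h7 : ((q + 1) * (q + 3)) * ((q + 2) ^ 2 + 1) ∣ ((q + 1) * (q + 3)) * (5 * (q + 1)) := by
        have : 5 * ((q + 1) * (q + 3) * (q + 1)) = ((q + 1) * (q + 3)) * (5 * (q + 1)) := by ring
        rw [← this]
        exact h
      exact Nat.dvd_of_mul_dvd_mul_left (by positivity) h7
    have h8 := Nat.le_of_dvd (by omega) h6
    have h9 : q ≤ 1 := by nlinarith
    interval_cases q <;> simp
  · exfalso
    have hn6 : 6 ≤ n := by omega
    rcases Nat.eq_or_lt_of_le (show 2 ≤ q + 2 by omega) with h2 | h2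
    · have hq : q = 0 := by omega
      subst hq
      have := arith_aux2 n hn6
      norm_num at hle
      omega
    · have := arith_aux (q + 2) n (by omega) hn6
      omega

end Cfsg.Agent.Lib.EqConj.Arith
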