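import Cfsg.Agent.Lib.EqConj.Exc81
import Cfsg.Prelude.Def_Perm
import Cfsg.Prelude.Def_Transfer

/-!
# The core theorem: a normal elementary abelian self-centralizing Hall subgroup
-/

set_option autoImplicit false
set_option linter.unusedSectionVars false
set_option linter.style.haveILetI false

namespace Cfsg.Agent.Lib.EqConj.Core

open Module Subgroup
open Cfsg.Agent.Lib.EqConj.Count Cfsg.Agent.Lib.EqConj.Lin Cfsg.Agent.Lib.EqConj.Exc81

universe u

variable {p : ℕ} [hp : Fact p.Prime] {M : Type u} [Group M] {Q : Subgroup M}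

/-- The vector space of an elementary abelian subgroup. -/
def VV (_hE : Cfsg.IsElementaryAbelian p Q) : Type u := Additive Q

variable (hE : Cfsg.IsElementaryAbelian p Q)

/-- The commutative group structure. -/
@[reducible] def cg : CommGroup Q :=
  { (inferInstance : Group Q) with mul_comm := hE.1.is_comm.comm }

noncomputable instance : AddCommGroup (VV hE) :=
  @Additive.addCommGroup Q (cg hE)

/-- to the vector space -/
def toV (x : Q) : VV hE := Additive.ofMul x
/-- from the vector space -/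
def ofV (v : VV hE) : Q := Additive.toMul v

@[simp] theorem ofV_toV (x : Q) : ofV hE (toV hE x) = x := rfl
@[simp] theorem toV_ofV (v : VV hE) : toV hE (ofV hE v) = v := rfl

theorem toV_mul (x y : Q) : toV hE (x * y) = toV hE x + toV hE y := rfl
theorem ofV_add (v w : VV hE) : ofV hE (v + w) = ofV hE v * ofV hE w := rfl
theorem ofV_zero : ofV hE (0 : VV hE) = 1 := rfl
theorem toV_one : toV hE (1 : Q) = 0 := rfl

theorem p_nsmul (v : VV hE) : p • v = 0 := by
  show toV hE ((ofV hE v) ^ p) = 0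
  have : (ofV hE v) ^ p = 1 := Subtype.ext (hE.2 _ (ofV hE v).2)
  rw [this]
  rfl

noncomputable instance : Module (ZMod p) (VV hE) := AddCommGroup.zmodModule (p_nsmul hE)

instance [Finite M] : Finite (VV hE) := inferInstanceAs (Finite (Additive Q))

theorem card_VV : Nat.card (VV hE) = Nat.card Q :=
  Nat.card_congr (Additive.ofMul (α := Q)).symm

section conj

variable [hn : Q.Normal]

/-- the conjugation action, additive -/
noncomputable def actA (m : M) : VV hE →+ VV hE :=
  AddMonoidHom.mk' (fun v => toV hE ⟨m * (ofV hE v : M) * m⁻¹, hn.conj_mem _ (ofV hE v).2 m⟩) (by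
    intro a b
    apply (Additive.toMul (α := Q)).injective
    apply Subtype.ext
    show m * ((ofV hE a : M) * (ofV hE b : M)) * m⁻¹ = (m * (ofV hE a : M) * m⁻¹) * (m * (ofV hE b : M) * m⁻¹)
    group)

theorem actA_val (m : M) (v : VV hE) : (ofV hE (actA hE m v) : M) = m * (ofV hE v : M) * m⁻¹ := rfl

/-- the conjugation action, linear -/
noncomputable def actL (m : M) : VV hE ≃ₗ[ZMod p] VV hE :=
  LinearEquiv.ofLinear ((actA hE m).toZModLinearMap p) ((actA hE m⁻¹).toZModLinearMap p)
    (by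
      ext v
      apply (Additive.toMul (α := Q)).injective
      apply Subtype.ext
      show m * (m⁻¹ * (ofV hE v : M) * m⁻¹⁻¹) * m⁻¹ = _
      simp only [inv_inv]
      show _ = (ofV hE v : M)
      group)
    (by
      ext v
      apply (Additive.toMul (α := Q)).injective
      apply Subtype.ext
      show m⁻¹ * (m * (ofV hE v : M) * m⁻¹) * m⁻¹⁻¹ = _
      simp only [inv_inv]
      show _ = (ofV hE v : M)
      group)

theorem actL_val (m : M) (v : VV hE) : (ofV hE (actL hE m v) : M) = m * (ofV hE v : M) * m⁻¹ := rfl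

/-- the conjugation homomorphism -/
noncomputable def rho : M →* (VV hE ≃ₗ[ZMod p] VV hE) where
  toFun := actL hE
  map_one' := by
    apply LinearEquiv.ext
    intro v
    apply (Additive.toMul (α := Q)).injective
    apply Subtype.ext
    show (ofV hE (actL hE 1 v) : M) = (ofV hE v : M)
    rw [actL_val]
    simp
  map_mul' := by
    intro a b
    apply LinearEquiv.ext
    intro v
    apply (Additive.toMul (α := Q)).injective
    apply Subtype.ext
    show (ofV hE (actL hE (a * b) v) : M) = (ofV hE (actL hE a (actL hE b v)) : M)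
    rw [actL_val, actL_val, actL_val]
    group

theorem rho_val (m : M) (v : VV hE) : (ofV hE (rho hE m v) : M) = m * (ofV hE v : M) * m⁻¹ := rfl

theorem mem_ker_rho (m : M) : m ∈ (rho hE).ker ↔ m ∈ centralizer (Q : Set M) := by
  rw [MonoidHom.mem_ker, mem_centralizer_iff]
  constructor
  · intro h x hx
    have h1 := congrArg (fun f : VV hE ≃ₗ[ZMod p] VV hE => (ofV hE (f (toV hE ⟨x, hx⟩)) : M)) h
    simp only [rho_val] at h1
    have h2 : m * x * m⁻¹ = x := h1
    exact (mul_inv_eq_iff_eq_mul.mp h2).symm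
  · intro h
    apply LinearEquiv.ext
    intro v
    apply (Additive.toMul (α := Q)).injective
    apply Subtype.ext
    show (ofV hE (rho hE m v) : M) = (ofV hE v : M)
    rw [rho_val, ← h _ (ofV hE v).2]
    group

/-- The subgroup of a subspace. -/
def subOf (W : Submodule (ZMod p) (VV hE)) : Subgroup M where
  carrier := {x | ∃ hx : x ∈ Q, toV hE ⟨x, hx⟩ ∈ W}
  one_mem' := ⟨Q.one_mem, W.zero_mem⟩
  mul_mem' := by
    rintro a b ⟨ha, ha'⟩ ⟨hb, hb'⟩
    exact ⟨Q.mul_mem ha hb, W.add_mem ha' hb'⟩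
  inv_mem' := by
    rintro a ⟨ha, ha'⟩
    refine ⟨Q.inv_mem ha, ?_⟩
    have : toV hE ⟨a⁻¹, Q.inv_mem ha⟩ = - toV hE ⟨a, ha⟩ := rfl
    rw [this]
    exact W.neg_mem ha'

theorem subOf_le (W : Submodule (ZMod p) (VV hE)) : subOf hE W ≤ Q := fun _ hx => hx.1

theorem card_subOf (W : Submodule (ZMod p) (VV hE)) : Nat.card (subOf hE W) = Nat.card W := by
  apply Nat.card_congr
  refine
    { toFun := fun x => ⟨toV hE ⟨x.1, x.2.1⟩, x.2.2⟩
      invFun := fun v => ⟨(ofV hE v.1 : M), ⟨(ofV hE v.1).2, v.2⟩⟩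
      left_inv := fun x => rfl
      right_inv := fun v => rfl }

theorem map_of_conj (W₁ W₂ : Submodule (ZMod p) (VV hE)) (m : M)
    (h : subOf hE W₂ = (subOf hE W₁).map (MulAut.conj m).toMonoidHom) :
    W₁.map (rho hE m).toLinearMap = W₂ := by
  ext v
  constructor
  · rintro ⟨w, hw, rfl⟩
    have h1 : (ofV hE w : M) ∈ subOf hE W₁ := ⟨(ofV hE w).2, hw⟩
    have h2 : m * (ofV hE w : M) * m⁻¹ ∈ subOf hE W₂ := by
      rw [h]
      exact ⟨_, h1, rfl⟩
    exact h2.2
  · intro hv
    have h1 : (ofV hE v : M) ∈ subOf hE W₂ := ⟨(ofV hE v).2, hv⟩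
    rw [h] at h1
    obtain ⟨x, hx, hxv⟩ := h1
    refine ⟨toV hE ⟨x, hx.1⟩, hx.2, ?_⟩
    apply (Additive.toMul (α := Q)).injective
    apply Subtype.ext
    show m * x * m⁻¹ = _
    exact hxv

end conj

section main

variable [Finite M] [hn : Q.Normal] {n : ℕ}

/-- The group of conjugations. -/
noncomputable abbrev AA : Subgroup (VV hE ≃ₗ[ZMod p] VV hE) := (rho hE).range

theorem transS_AA
    (htrans : ∀ Q₁ Q₂ : Subgroup M, Q₁ ≤ Q → Q₂ ≤ Q → Nat.card Q₁ = Nat.card Q₂ →
      ∃ m : M, Q₂ = Q₁.map (MulAut.conj m).toMonoidHom) : TransS (AA hE) := by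
  intro W₁ W₂ hW
  have hc : Nat.card (subOf hE W₁) = Nat.card (subOf hE W₂) := by
    rw [card_subOf, card_subOf, Module.natCard_eq_pow_finrank (K := ZMod p) (V := W₁),
      Module.natCard_eq_pow_finrank (K := ZMod p) (V := W₂), hW]
  obtain ⟨m, hm⟩ := htrans _ _ (subOf_le hE W₁) (subOf_le hE W₂) hc
  exact ⟨rho hE m, ⟨m, rfl⟩, map_of_conj hE W₁ W₂ m hm⟩

theorem card_M_eq (hcent : centralizer (Q : Set M) ≤ Q) (hQcomm : Q ≤ centralizer (Q : Set M)) :
    (rho hE).ker = Q := by
  apply le_antisymm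
  · intro m hm
    exact hcent ((mem_ker_rho hE m).mp hm)
  · intro m hm
    exact (mem_ker_rho hE m).mpr (hQcomm hm)

end main

end Cfsg.Agent.Lib.EqConj.Core
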