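import Mathlib

/-!
# The number of 2-dimensional subspaces
-/

set_option autoImplicit false

namespace Cfsg.Agent.Lib.EqConj.Count

open Module

variable {K V : Type*} [Field K] [Fintype K] [AddCommGroup V] [Module K V] [Finite V]

/-- The 2-dimensional subspaces. -/
abbrev T2 (K V : Type*) [Field K] [AddCommGroup V] [Module K V] : Type _ :=
  {W : Submodule K V // finrank K W = 2}

theorem card_T2 (hn : 2 ≤ finrank K V) :
    Nat.card (T2 K V) * ((Fintype.card K ^ 2 - Fintype.card K ^ 0) * (Fintype.card K ^ 2 - Fintype.card K ^ 1)) =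
      (Fintype.card K ^ finrank K V - Fintype.card K ^ 0) * (Fintype.card K ^ finrank K V - Fintype.card K ^ 1) := by
  classical
  haveI : Module.Finite K V := Module.Finite.of_finite
  let PiS := {s : Fin 2 → V // LinearIndependent K s}
  have hPi : Nat.card PiS = _ := card_linearIndependent (K := K) (V := V) hn
  rw [Fin.prod_univ_two] at hPi
  simp only [Fin.val_zero, Fin.val_one] at hPi
  rw [← hPi]
  let f : PiS → T2 K V := fun s => ⟨Submodule.span K (Set.range s.1), by
    rw [finrank_span_eq_card s.2]; simp⟩
  have hfib : ∀ W : T2 K V, Nat.card {s : PiS // f s = W} =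
      (Fintype.card K ^ 2 - Fintype.card K ^ 0) * (Fintype.card K ^ 2 - Fintype.card K ^ 1) := by
    rintro ⟨W, hW⟩
    have h2 : Nat.card {s : Fin 2 → W // LinearIndependent K s} = _ :=
      card_linearIndependent (K := K) (V := W) (k := 2) (by rw [hW])
    rw [Fin.prod_univ_two, hW] at h2
    simp only [Fin.val_zero, Fin.val_one] at h2
    rw [← h2]
    apply Nat.card_congr
    refine
      { toFun := fun s => ⟨fun i => ⟨s.1.1 i, ?_⟩, ?_⟩
        invFun := fun s => ⟨⟨fun i => (s.1 i : V), ?_⟩, ?_⟩
        left_inv := ?_
        right_inv := ?_ }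
    · have h3 : Submodule.span K (Set.range s.1.1) = W := congrArg Subtype.val s.2
      exact h3.le (Submodule.subset_span ⟨i, rfl⟩)
    · have h4 := s.1.2
      apply LinearIndependent.of_comp W.subtype
      exact h4
    · exact s.2.map' W.subtype (Submodule.ker_subtype W)
    · apply Subtype.ext
      have h5 : Submodule.span K (Set.range fun i => (s.1 i : V)) ≤ W := by
        rw [Submodule.span_le]
        rintro _ ⟨i, rfl⟩
        exact (s.1 i).2
      have h6 : finrank K (Submodule.span K (Set.range fun i => (s.1 i : V))) = 2 := by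
        have h7 : LinearIndependent K (fun i => (s.1 i : V)) := s.2.map' W.subtype (Submodule.ker_subtype W)
        rw [finrank_span_eq_card h7]
        simp
      exact Submodule.eq_of_le_of_finrank_eq h5 (by rw [h6, hW])
    · intro s
      rfl
    · intro s
      rfl
  have hsig := Nat.card_congr (Equiv.sigmaFiberEquiv f)
  haveI : Finite (T2 K V) := inferInstance
  letI : Fintype (T2 K V) := Fintype.ofFinite _
  rw [Nat.card_sigma] at hsig
  rw [← hsig]
  simp only [hfib, Finset.sum_const, smul_eq_mul, Finset.card_univ, Nat.card_eq_fintype_card]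

end Cfsg.Agent.Lib.EqConj.Count
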