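import Cfsg.Agent.Lib.EqConj.Lin
import Cfsg.Agent.S0005

/-!
# The exceptional case of order `3 ^ 4`
-/

set_option autoImplicit false
set_option linter.unusedSectionVars false
set_option linter.style.haveILetI false

namespace Cfsg.Agent.Lib.EqConj.Exc81

open Module Subgroup
open Cfsg.Agent.Lib.EqConj.Count Cfsg.Agent.Lib.EqConj.Lin

universe u

/-- A group of order 65 contains commuting elements of orders 5 and 13. -/
theorem comm_of_card65 {H : Type*} [Group H] [Finite H] (hH : Nat.card H = 65) :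
    ∃ x y : H, orderOf x = 5 ∧ orderOf y = 13 ∧ x * y = y * x := by
  haveI h5 : Fact (Nat.Prime 5) := ⟨by norm_num⟩
  haveI h13 : Fact (Nat.Prime 13) := ⟨by norm_num⟩
  obtain ⟨x, hx⟩ := exists_prime_orderOf_dvd_card' (G := H) 5 (by rw [hH]; norm_num)
  obtain ⟨y, hy⟩ := exists_prime_orderOf_dvd_card' (G := H) 13 (by rw [hH]; norm_num)
  refine ⟨x, y, hx, hy, ?_⟩
  have hidx : (zpowers y).index = (Nat.card H).minFac := by
    have h1 := (zpowers y).card_mul_index
    rw [Nat.card_zpowers, hy, hH] at h1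
    rw [hH]
    have : (65 : ℕ).minFac = 5 := by norm_num
    rw [this]
    omega
  haveI hn : (zpowers y).Normal := Subgroup.normal_of_index_eq_minFac_card hidx
  have hy13 : y ^ 13 = 1 := by rw [← hy]; exact pow_orderOf_eq_one y
  have hmem : x * y * x⁻¹ ∈ zpowers y := hn.conj_mem y (mem_zpowers y) x
  obtain ⟨k, hk⟩ : ∃ k : ℕ, x * y * x⁻¹ = y ^ k := by
    obtain ⟨m, hm⟩ := mem_zpowers_iff.mp hmem
    refine ⟨(m % 13).toNat, ?_⟩
    rw [← hm]
    have h0 : (0 : ℤ) ≤ m % 13 := Int.emod_nonneg _ (by norm_num)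
    rw [← zpow_natCast, Int.toNat_of_nonneg h0]
    conv_lhs => rw [← Int.emod_add_mul_ediv m 13]
    rw [zpow_add, zpow_mul]
    simp [hy13]
  have hit : ∀ i : ℕ, x ^ i * y * (x ^ i)⁻¹ = y ^ (k ^ i) := by
    intro i
    induction i with
    | zero => simp
    | succ i ih =>
      have h1 : x ^ (i + 1) * y * (x ^ (i + 1))⁻¹ = x ^ i * (x * y * x⁻¹) * (x ^ i)⁻¹ := by
        rw [pow_succ]
        group
      rw [h1, hk]
      have h2 : x ^ i * y ^ k * (x ^ i)⁻¹ = (x ^ i * y * (x ^ i)⁻¹) ^ k := by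
        rw [conj_pow]
      rw [h2, ih, ← pow_mul, pow_succ]
  have h5' := hit 5
  rw [← hx, pow_orderOf_eq_one, hx] at h5'
  simp only [one_mul, inv_one, mul_one] at h5'
  have h6 : y ^ (k ^ 5) = y ^ 1 := by rw [← h5', pow_one]
  rw [pow_eq_pow_iff_modEq, hy] at h6
  have h7 : k % 13 = 1 := by
    have h8 : ((k % 13) ^ 5) % 13 = 1 := by
      have : (k ^ 5) % 13 = 1 := h6
      rw [← this]
      exact (Nat.pow_mod k 5 13).symm
    have h9 : k % 13 < 13 := Nat.mod_lt _ (by norm_num)
    generalize k % 13 = z at h8 h9 ⊢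
    interval_cases z <;> first | rfl | (norm_num at h8)
  have h10 : y ^ k = y := by
    conv_lhs => rw [← Nat.mod_add_div k 13, h7, pow_add, pow_mul, hy13]
    simp
  rw [h10] at hk
  exact mul_inv_eq_iff_eq_mul.mp hk

variable {V : Type u} [AddCommGroup V]

section fix

variable {p : ℕ} [hp : Fact p.Prime] [Module (ZMod p) V] [Finite V]

/-- The fixed subspace. -/
def fixS (g : V ≃ₗ[ZMod p] V) : Submodule (ZMod p) V :=
  LinearMap.ker ((g : V →ₗ[ZMod p] V) - LinearMap.id)

theorem mem_fixS (g : V ≃ₗ[ZMod p] V) (v : V) : v ∈ fixS g ↔ g v = v := by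
  simp [fixS, sub_eq_zero]

/-- The fixed points of an element of prime order. -/
theorem card_fix_modEq (g : V ≃ₗ[ZMod p] V) (r : ℕ) [hr : Fact r.Prime] (hg : orderOf g = r) :
    Nat.card V ≡ Nat.card (fixS g) [MOD r] := by
  classical
  haveI : Finite (V ≃ₗ[ZMod p] V) :=
    Finite.of_injective (fun h => (fun v => h v)) (fun a b hab => LinearEquiv.ext (fun v => congrFun hab v))
  have hpg : IsPGroup r (zpowers g) := by
    apply IsPGroup.of_card (n := 1)
    rw [Nat.card_zpowers, hg, pow_one]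
  have h1 := hpg.card_modEq_card_fixedPoints V
  have h2 : Nat.card (MulAction.fixedPoints (zpowers g) V) = Nat.card (fixS g) := by
    apply Nat.card_congr
    refine Equiv.subtypeEquivRight ?_
    intro v
    constructor
    · intro hv
      exact (mem_fixS g v).mpr (hv ⟨g, mem_zpowers g⟩)
    · intro hv x
      obtain ⟨x, m, rfl⟩ := x
      have hv' : g v = v := (mem_fixS g v).mp hv
      show (g ^ m) v = v
      have h3 : ∀ m : ℕ, (g ^ m) v = v := by
        intro m
        induction m with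
        | zero => rfl
        | succ m ih =>
          rw [pow_succ]
          show (g ^ m) (g v) = v
          rw [hv', ih]
      have h4 : ∀ m : ℕ, (g⁻¹ ^ m) v = v := by
        intro m
        induction m with
        | zero => rfl
        | succ m ih =>
          rw [pow_succ]
          show (g⁻¹ ^ m) (g⁻¹ v) = v
          have : g⁻¹ v = v := by
            conv_lhs => rw [← hv']
            exact g.symm_apply_apply v
          rw [this, ih]
      cases m with
      | ofNat m => simpa using h3 m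
      | negSucc m =>
        rw [zpow_negSucc, ← inv_pow]
        exact h4 (m + 1)
  rw [← h2]
  exact h1

end fix

theorem key3 : ∀ c : ZMod 3, c ^ 5 = 1 → c = 1 := by decide

/-- No commuting elements of orders 5 and 13 in `GL₄(3)`. -/
theorem no_comm [hp : Fact (Nat.Prime 3)] [Module (ZMod 3) V] [Finite V] (hV : Nat.card V = 3 ^ 4)
    (h k : V ≃ₗ[ZMod 3] V)
    (hh : orderOf h = 5) (hk : orderOf k = 13) (hc : h * k = k * h) : False := by
  haveI h5 : Fact (Nat.Prime 5) := ⟨by norm_num⟩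
  haveI h13 : Fact (Nat.Prime 13) := ⟨by norm_num⟩
  haveI : Module.Finite (ZMod 3) V := Module.Finite.of_finite
  have hfr : finrank (ZMod 3) V = 4 := finrank_eq 4 hV
  have h1 := card_fix_modEq h 5 hh
  have h2 := card_fix_modEq k 13 hk
  have hcard : ∀ W : Submodule (ZMod 3) V, Nat.card W = 3 ^ finrank (ZMod 3) W := by
    intro W
    rw [Module.natCard_eq_pow_finrank (K := ZMod 3) (V := W), Nat.card_zmod]
  have hle : ∀ W : Submodule (ZMod 3) V, finrank (ZMod 3) W ≤ 4 := by
    intro W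
    rw [← hfr]
    exact Submodule.finrank_le W
  have hne : ∀ g : V ≃ₗ[ZMod 3] V, orderOf g ≠ 1 → finrank (ZMod 3) (fixS g) ≠ 4 := by
    intro g hg h4
    apply hg
    rw [orderOf_eq_one_iff]
    apply LinearEquiv.ext
    intro v
    have h5 : fixS g = ⊤ := Submodule.eq_top_of_finrank_eq (by rw [h4, hfr])
    have h6 : v ∈ fixS g := by rw [h5]; trivial
    exact (mem_fixS g v).mp h6
  rw [hV, hcard] at h1 h2
  have h3 := hle (fixS h)
  have h4 := hle (fixS k)
  have h5' := hne h (by rw [hh]; norm_num)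
  have h6' := hne k (by rw [hk]; norm_num)
  have hfh : finrank (ZMod 3) (fixS h) = 0 := by
    generalize finrank (ZMod 3) (fixS h) = c at h1 h3 h5' ⊢
    interval_cases c <;> first | rfl | (exfalso; revert h1; decide) | omega
  have hfk : finrank (ZMod 3) (fixS k) = 1 := by
    generalize finrank (ZMod 3) (fixS k) = c at h2 h4 h6' ⊢
    interval_cases c <;> first | rfl | (exfalso; revert h2; decide) | omega
  have hbot : fixS h = ⊥ := Submodule.finrank_eq_zero.mp hfh
  obtain ⟨v, hv⟩ : ∃ v : fixS k, v ≠ 0 := by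
    haveI : Nontrivial (fixS k) := Module.nontrivial_of_finrank_pos (R := ZMod 3) (by omega)
    exact exists_ne 0
  have hspan := (finrank_eq_one_iff_of_nonzero' v hv).mp hfk
  have hhv : h v.1 ∈ fixS k := by
    rw [mem_fixS]
    have h7 : k (h v.1) = (k * h) v.1 := rfl
    rw [h7, ← hc]
    show h (k v.1) = _
    rw [(mem_fixS k v.1).mp v.2]
  obtain ⟨c, hc'⟩ := hspan ⟨h v.1, hhv⟩
  have hc2 : h v.1 = c • v.1 := (congrArg Subtype.val hc').symm
  have hpow : ∀ i : ℕ, (h ^ i) v.1 = c ^ i • v.1 := by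
    intro i
    induction i with
    | zero => simp
    | succ i ih =>
      rw [pow_succ]
      show (h ^ i) (h v.1) = _
      rw [hc2, map_smul, ih, smul_smul, pow_succ, mul_comm]
  have h8 := hpow 5
  rw [← hh, pow_orderOf_eq_one, hh] at h8
  have hv0 : v.1 ≠ 0 := fun e => hv (Subtype.ext e)
  have hc1 : c ^ 5 = 1 := by
    have h9 : (c ^ 5 - 1) • v.1 = 0 := by
      rw [sub_smul, one_smul, ← h8]
      simp
    rcases smul_eq_zero.mp h9 with h10 | h10
    · exact sub_eq_zero.mp h10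
    · exact absurd h10 hv0
  have hc3 : c = 1 := by
    exact key3 c hc1
  rw [hc3, one_smul] at hc2
  have h10 : v.1 ∈ fixS h := (mem_fixS h v.1).mpr hc2
  rw [hbot, Submodule.mem_bot] at h10
  exact hv0 h10

/-- The order of the general linear group. -/
theorem card_GL [hp : Fact (Nat.Prime 3)] [Module (ZMod 3) V] [Finite V] (hV : Nat.card V = 3 ^ 4) :
    Nat.card (V ≃ₗ[ZMod 3] V) = 80 * 78 * 72 * 54 := by
  haveI : Module.Finite (ZMod 3) V := Module.Finite.of_finite
  have hfr : finrank (ZMod 3) V = 4 := finrank_eq 4 hV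
  have hfr2 : finrank (ZMod 3) (Fin 4 → ZMod 3) = 4 := by simp
  let e₀ : V ≃ₗ[ZMod 3] (Fin 4 → ZMod 3) := LinearEquiv.ofFinrankEq _ _ (by rw [hfr, hfr2])
  let E1 : (V ≃ₗ[ZMod 3] V) ≃ ((Fin 4 → ZMod 3) ≃ₗ[ZMod 3] (Fin 4 → ZMod 3)) :=
    { toFun := fun f => e₀.symm.trans (f.trans e₀)
      invFun := fun f => e₀.trans (f.trans e₀.symm)
      left_inv := fun f => by ext v; simp
      right_inv := fun f => by ext v; simp }
  let E2 : GL (Fin 4) (ZMod 3) ≃ ((Fin 4 → ZMod 3) ≃ₗ[ZMod 3] (Fin 4 → ZMod 3)) :=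
    (Matrix.GeneralLinearGroup.toLin).toEquiv.trans
      (LinearMap.GeneralLinearGroup.generalLinearEquiv (ZMod 3) (Fin 4 → ZMod 3)).toEquiv
  rw [Nat.card_congr E1, ← Nat.card_congr E2, Matrix.card_GL_field]
  simp [Fin.prod_univ_four, ZMod.card]

/-- The exceptional case does not occur. -/
theorem no_81 [hp : Fact (Nat.Prime 3)] [Module (ZMod 3) V] [Finite V] (hV : Nat.card V = 3 ^ 4)
    (A : Subgroup (V ≃ₗ[ZMod 3] V)) (hsolv : Group.IsSolvable A) (htr : TransS A) : False := by
  classical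
  haveI : Finite (V ≃ₗ[ZMod 3] V) :=
    Finite.of_injective (fun h => (fun v => h v)) (fun a b hab => LinearEquiv.ext (fun v => congrFun hab v))
  haveI := hsolv
  have hfr : finrank (ZMod 3) V = 4 := finrank_eq 4 hV
  obtain ⟨S, hS, -⟩ := exists_stab (by omega) A htr
  have hcT := card_T2 (K := ZMod 3) (V := V) (by omega)
  rw [hfr, ZMod.card] at hcT
  norm_num at hcT
  have hc : Nat.card (T2 (ZMod 3) V) = 130 := by omega
  have h130 : 130 ∣ Nat.card A := ⟨_, by rw [← hS, hc]⟩
  have h65 : 65 ∣ Nat.card A := dvd_trans (by norm_num) h130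
  obtain ⟨d, hd⟩ := h65
  have hGL : Nat.card A ∣ 80 * 78 * 72 * 54 := by
    rw [← card_GL hV]
    exact Subgroup.card_subgroup_dvd_card A
  have hd65 : d.Coprime 65 := by
    have h1 : d ∣ 2 ^ 9 * 3 ^ 6 := by
      have h2 : 65 * d ∣ 65 * (2 ^ 9 * 3 ^ 6) := by
        have h4 : 65 * (2 ^ 9 * 3 ^ 6) = 80 * 78 * 72 * 54 := by norm_num
        rw [← hd, h4]
        exact hGL
      exact Nat.dvd_of_mul_dvd_mul_left (by norm_num) h2
    have h3 : Nat.Coprime (2 ^ 9 * 3 ^ 6) 65 := by norm_num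
    exact Nat.Coprime.coprime_dvd_left h1 h3
  obtain ⟨H, hH, -⟩ := Cfsg.Agent.S0005.result (G := A) 65 d hd hd65.symm ⊥ (by simp)
  obtain ⟨x, y, hx, hy, hxy⟩ := comm_of_card65 hH
  have hinj : Function.Injective (fun z : H => ((z : A) : V ≃ₗ[ZMod 3] V)) :=
    fun a b hab => Subtype.ext (Subtype.ext hab)
  refine no_comm hV ((x : A) : V ≃ₗ[ZMod 3] V) ((y : A) : V ≃ₗ[ZMod 3] V) ?_ ?_ ?_
  · rw [← hx]
    have : ((x : A) : V ≃ₗ[ZMod 3] V) = (A.subtype.comp H.subtype) x := rfl
    rw [this]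
    exact orderOf_injective _ hinj x
  · rw [← hy]
    have : ((y : A) : V ≃ₗ[ZMod 3] V) = (A.subtype.comp H.subtype) y := rfl
    rw [this]
    exact orderOf_injective _ hinj y
  · exact congrArg (fun z : H => ((z : A) : V ≃ₗ[ZMod 3] V)) hxy

end Cfsg.Agent.Lib.EqConj.Exc81
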