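import Cfsg.Agent.Lib.Hup.Main
import Cfsg.Agent.Lib.EqConj.Arith
import Cfsg.Agent.Lib.EqConj.Count

/-!
# Linear groups transitive on the subspaces of each dimension: the field model
-/

set_option autoImplicit false
set_option linter.unusedSectionVars false
set_option linter.style.haveILetI false

namespace Cfsg.Agent.Lib.EqConj.Lin

open Module Subgroup
open Cfsg.Agent.Lib.Hup.Ann (Trans)
open Cfsg.Agent.Lib.EqConj.Count

universe u

variable {p : ℕ} [hp : Fact p.Prime] {V : Type u} [AddCommGroup V] [Module (ZMod p) V] [Finite V]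

/-- Transitivity on the subspaces of each dimension. -/
def TransS (A : Subgroup (V ≃ₗ[ZMod p] V)) : Prop :=
  ∀ W₁ W₂ : Submodule (ZMod p) V, finrank (ZMod p) W₁ = finrank (ZMod p) W₂ →
    ∃ h ∈ A, W₁.map (h : V ≃ₗ[ZMod p] V).toLinearMap = W₂

/-- The field model data. -/
structure Data (n : ℕ) (A : Subgroup (V ≃ₗ[ZMod p] V)) where
  e : V ≃+ GaloisField p n
  a : A → GaloisField p n
  σ : A → (GaloisField p n ≃+* GaloisField p n)
  ha : ∀ h, a h ≠ 0
  spec : ∀ (h : A) (v : V), e ((h : V ≃ₗ[ZMod p] V) v) = a h * σ h (e v)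
  mul : ∀ h h' : A, a (h * h') = a h * σ h (a h') ∧ σ (h * h') = σ h * σ h'

theorem card_gf (n : ℕ) (hn : n ≠ 0) : Nat.card (GaloisField p n) = p ^ n := GaloisField.card p n hn

theorem card_ringEquiv (n : ℕ) (hn : n ≠ 0) :
    Nat.card (GaloisField p n ≃+* GaloisField p n) = n := by
  have h1 : Nat.card (GaloisField p n ≃ₐ[ZMod p] GaloisField p n) =
      Module.finrank (ZMod p) (GaloisField p n) := IsGalois.card_aut_eq_finrank _ _
  have h2 : Module.finrank (ZMod p) (GaloisField p n) = n := GaloisField.finrank p hn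
  have h3 : Nat.card (GaloisField p n ≃ₐ[ZMod p] GaloisField p n) =
      Nat.card (GaloisField p n ≃+* GaloisField p n) := by
    refine Nat.card_congr ⟨fun σ => σ.toRingEquiv, fun σ => AlgEquiv.ofRingEquiv (f := σ) ?_, ?_, ?_⟩
    · intro r
      have : ((σ : GaloisField p n →+* GaloisField p n).comp (algebraMap (ZMod p) (GaloisField p n))) =
          algebraMap (ZMod p) (GaloisField p n) := RingHom.ext_zmod _ _
      exact DFunLike.congr_fun this r
    · intro σ
      ext x
      rfl
    · intro σ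
      ext x
      rfl
  rw [← h3, h1, h2]

/-- Huppert's theorem applied to the group of scalar multiples. -/
theorem step1 (n : ℕ) (hn : 3 ≤ n) (hcard : Nat.card V = p ^ n) (A : Subgroup (V ≃ₗ[ZMod p] V))
    (hsolv : Group.IsSolvable A) (htr : TransS A) :
    Nonempty (Data n A) ∨ (p = 3 ∧ n = 4) := by
  classical
  have hpp : p.Prime := Fact.out
  haveI hnt : Nontrivial V := by
    rw [← Finite.one_lt_card_iff_nontrivial, hcard]
    exact Nat.one_lt_pow (by omega) hpp.one_lt
  haveI : Module.Finite (ZMod p) V := Module.Finite.of_finite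
  let scal : (ZMod p)ˣ →* (V ≃ₗ[ZMod p] V) := DistribMulAction.toModuleAut (ZMod p) V
  have hscal : ∀ (c : (ZMod p)ˣ) (v : V), scal c v = (c : ZMod p) • v := fun _ _ => rfl
  have hcomm : ∀ (h : A) (c : (ZMod p)ˣ), Commute ((A.subtype) h) (scal c) := by
    intro h c
    apply LinearEquiv.ext
    intro v
    show (h : V ≃ₗ[ZMod p] V) (scal c v) = scal c ((h : V ≃ₗ[ZMod p] V) v)
    rw [hscal, hscal, map_smul]
  let g : A × (ZMod p)ˣ →* (V ≃ₗ[ZMod p] V) := MonoidHom.noncommCoprod A.subtype scal hcomm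
  have hg : ∀ (h : A) (c : (ZMod p)ˣ), g (h, c) = (h : V ≃ₗ[ZMod p] V) * scal c := fun _ _ => rfl
  have hsol : Group.IsSolvable g.range := by
    haveI := hsolv
    exact Group.isSolvable_of_surjective g.rangeRestrict_surjective
  have htrans : Trans g.range := by
    intro v w hv hw
    obtain ⟨h, hhA, hh⟩ := htr (Submodule.span (ZMod p) {v}) (Submodule.span (ZMod p) {w}) (by
      rw [finrank_span_singleton hv, finrank_span_singleton hw])
    have h1 : (h : V ≃ₗ[ZMod p] V) v ∈ Submodule.span (ZMod p) {w} := by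
      rw [← hh]
      exact Submodule.mem_map_of_mem (Submodule.mem_span_singleton_self v)
    obtain ⟨c, hc⟩ := Submodule.mem_span_singleton.mp h1
    have hc0 : c ≠ 0 := by
      rintro rfl
      rw [zero_smul] at hc
      have := (map_eq_zero_iff (h : V ≃ₗ[ZMod p] V) (LinearEquiv.injective _)).mp hc.symm
      exact hv this
    let u : (ZMod p)ˣ := Units.mk0 c hc0
    refine ⟨⟨g (⟨h, hhA⟩, u⁻¹), ⟨_, rfl⟩⟩, ?_⟩
    show (h : V ≃ₗ[ZMod p] V) (scal u⁻¹ v) = w
    rw [hscal, map_smul, ← hc, smul_smul]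
    have : ((u⁻¹ : (ZMod p)ˣ) : ZMod p) * c = 1 := by
      have : (u : ZMod p) = c := rfl
      rw [← this]
      exact Units.inv_mul u
    rw [this, one_smul]
  rcases Cfsg.Agent.Lib.Hup.Main.main_H htrans hsol with ⟨F, iF, iFt, e, hmain⟩ | hex
  · left
    have hn0 : n ≠ 0 := by omega
    letI : Fintype (GaloisField p n) := Fintype.ofFinite _
    have hcF : Fintype.card F = Fintype.card (GaloisField p n) := by
      rw [← Nat.card_eq_fintype_card, ← Nat.card_eq_fintype_card, card_gf n hn0, ← hcard]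
      exact (Nat.card_congr e.toEquiv).symm
    let θ : F ≃+* GaloisField p n := FiniteField.ringEquivOfCardEq hcF
    have key : ∀ h : A, ∃ (a : GaloisField p n) (σ : GaloisField p n ≃+* GaloisField p n),
        ∀ v : V, θ (e ((h : V ≃ₗ[ZMod p] V) v)) = a * σ (θ (e v)) := by
      intro h
      obtain ⟨a₀, σ₀, hh⟩ := hmain ⟨g (h, 1), ⟨_, rfl⟩⟩
      refine ⟨θ a₀, θ.symm.trans (σ₀.trans θ), fun v => ?_⟩
      have h1 := hh v
      have h2 : ((⟨g (h, 1), ⟨_, rfl⟩⟩ : g.range) : V ≃ₗ[ZMod p] V) v = (h : V ≃ₗ[ZMod p] V) v := by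
        show (h : V ≃ₗ[ZMod p] V) (scal 1 v) = _
        rw [map_one]
        rfl
      rw [h2] at h1
      rw [h1, map_mul]
      simp
    choose a σ hspec using key
    have hsurj : ∀ x : GaloisField p n, ∃ v : V, θ (e v) = x := fun x =>
      ⟨e.symm (θ.symm x), by simp⟩
    have ha0 : ∀ h : A, a h ≠ 0 := by
      intro h h0
      obtain ⟨v, hv⟩ := exists_ne (0 : V)
      have h1 := hspec h ((h : V ≃ₗ[ZMod p] V).symm v)
      rw [h0, zero_mul, LinearEquiv.apply_symm_apply] at h1
      have h2 : e v = 0 := (map_eq_zero_iff θ θ.injective).mp h1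
      exact hv ((map_eq_zero_iff e e.injective).mp h2)
    have huniq : ∀ (c c' : GaloisField p n) (s s' : GaloisField p n ≃+* GaloisField p n), c ≠ 0 →
        (∀ x, c * s x = c' * s' x) → c = c' ∧ s = s' := by
      intro c c' s s' hc h
      have h1 := h 1
      rw [map_one, map_one, mul_one, mul_one] at h1
      refine ⟨h1, ?_⟩
      ext x
      have h2 := h x
      rw [← h1] at h2
      exact mul_left_cancel₀ hc h2
    have hmul : ∀ h h' : A, a (h * h') = a h * σ h (a h') ∧ σ (h * h') = σ h * σ h' := by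
      intro h h'
      apply huniq _ _ _ _ (ha0 _)
      intro x
      obtain ⟨v, rfl⟩ := hsurj x
      rw [← hspec]
      show θ (e ((h : V ≃ₗ[ZMod p] V) ((h' : V ≃ₗ[ZMod p] V) v))) = _
      rw [hspec, hspec, map_mul, mul_assoc]
      rfl
    exact ⟨{ e := e.trans θ.toAddEquiv, a := a, σ := σ, ha := ha0, spec := hspec, mul := hmul }⟩
  · right
    have hpp3 : 2 ≤ p := hpp.two_le
    have hdvd : p ^ 3 ∣ Nat.card V := by
      rw [hcard]
      exact pow_dvd_pow _ hn
    have hdvd' : p ∣ Nat.card V := dvd_trans (dvd_pow_self p (by norm_num)) hdvd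
    simp only [Set.mem_insert_iff, Set.mem_singleton_iff] at hex
    have hle : p ^ 3 ≤ Nat.card V := Nat.le_of_dvd (by rw [hcard]; positivity) hdvd
    have hV529 : Nat.card V ≤ 529 := by rcases hex with h | h | h | h | h | h <;> omega
    have hp8 : p ≤ 8 := by
      by_contra hc
      have : 9 ≤ p := by omega
      have : 9 ^ 3 ≤ p ^ 3 := Nat.pow_le_pow_left this 3
      omega
    rcases hex with h | h | h | h | h | h <;> rw [h] at hdvd hdvd' hle <;>
      interval_cases p <;> first
        | omega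
        | (exfalso; revert hdvd'; norm_num; done)
        | (exfalso; revert hle; norm_num; done)
        | skip
    refine ⟨rfl, ?_⟩
    have h3 : 3 ^ n = 3 ^ 4 := by rw [← hcard, h]; norm_num
    exact Nat.pow_right_injective (le_refl _ |>.trans' (by norm_num : 2 ≤ 3)) h3

theorem finrank_eq (n : ℕ) (hcard : Nat.card V = p ^ n) : finrank (ZMod p) V = n := by
  have hpp : p.Prime := Fact.out
  have h1 := Module.natCard_eq_pow_finrank (K := ZMod p) (V := V)
  rw [hcard, Nat.card_zmod] at h1
  exact (Nat.pow_right_injective hpp.two_le h1).symm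

/-- The stabilizer of a 2-subspace. -/
theorem exists_stab (htr2 : 2 ≤ finrank (ZMod p) V) (A : Subgroup (V ≃ₗ[ZMod p] V)) (htr : TransS A) :
    ∃ S : Subgroup A, Nat.card (T2 (ZMod p) V) * Nat.card S = Nat.card A ∧
      ∀ h : A, (∀ W : Submodule (ZMod p) V, W.map (h : V ≃ₗ[ZMod p] V).toLinearMap = W) → h ∈ S := by
  classical
  haveI : Finite A := Cfsg.Agent.Lib.PermMod.MinNormal.finite_H A
  letI act : MulAction A (T2 (ZMod p) V) :=
    { smul := fun h W => ⟨W.1.map (h : V ≃ₗ[ZMod p] V).toLinearMap, by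
        rw [LinearEquiv.finrank_map_eq]; exact W.2⟩
      one_smul := by
        rintro ⟨W, hW⟩
        apply Subtype.ext
        show W.map (1 : V ≃ₗ[ZMod p] V).toLinearMap = W
        ext v
        simp
      mul_smul := by
        rintro h h' ⟨W, hW⟩
        apply Subtype.ext
        show W.map ((h : V ≃ₗ[ZMod p] V) * (h' : V ≃ₗ[ZMod p] V)).toLinearMap =
          (W.map (h' : V ≃ₗ[ZMod p] V).toLinearMap).map (h : V ≃ₗ[ZMod p] V).toLinearMap
        rw [← Submodule.map_comp]
        rfl }
  have hact : ∀ (h : A) (W : T2 (ZMod p) V), ((h • W : T2 (ZMod p) V) : Submodule (ZMod p) V) =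
      W.1.map (h : V ≃ₗ[ZMod p] V).toLinearMap := fun _ _ => rfl
  obtain ⟨W₀, hW₀⟩ : Nonempty (T2 (ZMod p) V) := by
    haveI : Module.Finite (ZMod p) V := Module.Finite.of_finite
    let b := Module.finBasis (ZMod p) V
    let s₀ : Fin 2 → V := fun i => b (Fin.castLE htr2 i)
    have hs₀ : LinearIndependent (ZMod p) s₀ :=
      b.linearIndependent.comp _ (Fin.castLE_injective htr2)
    exact ⟨⟨Submodule.span (ZMod p) (Set.range s₀), by rw [finrank_span_eq_card hs₀]; simp⟩⟩
  let x₀ : T2 (ZMod p) V := ⟨W₀, hW₀⟩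
  refine ⟨MulAction.stabilizer A x₀, ?_, ?_⟩
  · have horb : MulAction.orbit A x₀ = Set.univ := by
      ext y
      simp only [Set.mem_univ, iff_true]
      obtain ⟨h, hhA, hh⟩ := htr x₀.1 y.1 (by rw [x₀.2, y.2])
      exact ⟨⟨h, hhA⟩, Subtype.ext hh⟩
    have h1 := MulAction.index_stabilizer A x₀
    rw [horb, Set.ncard_univ] at h1
    rw [← h1, mul_comm]
    exact Subgroup.card_mul_index _
  · intro h hh
    rw [MulAction.mem_stabilizer_iff]
    exact Subtype.ext (hh W₀)

namespace Data

variable {n : ℕ} {A : Subgroup (V ≃ₗ[ZMod p] V)} (D : Data n A)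

/-- The field automorphism part. -/
noncomputable def sigmaHom : A →* (GaloisField p n ≃+* GaloisField p n) :=
  MonoidHom.mk' D.σ (fun h h' => (D.mul h h').2)

@[simp] theorem sigmaHom_apply (h : A) : D.sigmaHom h = D.σ h := rfl

theorem a_mul_ker {h h' : A} (hh : h ∈ D.sigmaHom.ker) : D.a (h * h') = D.a h * D.a h' := by
  rw [(D.mul h h').1]
  have : D.σ h = 1 := hh
  rw [this]
  rfl

/-- The multiplier on the kernel. -/
noncomputable def aHom : D.sigmaHom.ker →* (GaloisField p n)ˣ :=
  MonoidHom.mk' (fun h => Units.mk0 (D.a h.1) (D.ha h.1)) (fun h h' => by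
    apply Units.ext
    exact D.a_mul_ker h.2)

theorem aHom_val (h : D.sigmaHom.ker) : ((D.aHom h : (GaloisField p n)ˣ) : GaloisField p n) = D.a h.1 := rfl

theorem eq_one_of (h : A) (h1 : D.a h = 1) (h2 : D.σ h = 1) : h = 1 := by
  apply Subtype.ext
  apply LinearEquiv.ext
  intro v
  apply D.e.injective
  rw [D.spec, h1, h2]
  simp

theorem aHom_injective : Function.Injective D.aHom := by
  rw [injective_iff_map_eq_one]
  intro h hh
  apply Subtype.ext
  apply D.eq_one_of h.1
  · have := congrArg Units.val hh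
    simpa [aHom_val] using this
  · exact h.2

theorem card_ker_dvd (hn : n ≠ 0) : Nat.card D.sigmaHom.ker ∣ p ^ n - 1 := by
  classical
  letI : Fintype (GaloisField p n) := Fintype.ofFinite _
  have h1 : Nat.card (GaloisField p n)ˣ = p ^ n - 1 := by
    rw [Nat.card_eq_fintype_card, Fintype.card_units, ← Nat.card_eq_fintype_card, card_gf n hn]
  rw [← h1]
  exact Subgroup.card_dvd_of_injective _ D.aHom_injective

theorem card_range_dvd (hn : n ≠ 0) : Nat.card D.sigmaHom.range ∣ n := by
  haveI : Finite (GaloisField p n ≃+* GaloisField p n) := by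
    letI : Fintype (GaloisField p n) := Fintype.ofFinite _
    exact Finite.of_injective (fun σ => (σ : GaloisField p n → GaloisField p n))
      (fun a b h => RingEquiv.ext (congrFun h))
  have := Subgroup.card_subgroup_dvd_card D.sigmaHom.range
  rwa [card_ringEquiv n hn] at this

theorem card_eq : Nat.card D.sigmaHom.ker * Nat.card D.sigmaHom.range = Nat.card A := by
  rw [← Subgroup.index_ker]
  exact Subgroup.card_mul_index _

include D in
theorem card_dvd (hn : n ≠ 0) : Nat.card A ∣ n * (p ^ n - 1) := by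
  rw [← D.card_eq, mul_comm]
  exact mul_dvd_mul (D.card_range_dvd hn) (D.card_ker_dvd hn)

end Data

/-- The dimension. -/
theorem dim_of_data {n : ℕ} (hn : 3 ≤ n) (hcard : Nat.card V = p ^ n)
    {A : Subgroup (V ≃ₗ[ZMod p] V)} (htr : TransS A) (D : Data n A) : n = 3 ∨ (n = 5 ∧ p = 2) := by
  classical
  have hpp : p.Prime := Fact.out
  have hn0 : n ≠ 0 := by omega
  have hfr := finrank_eq (p := p) (V := V) n hcard
  obtain ⟨S, hS, hSmem⟩ := exists_stab (by omega) A htr
  have hcT := card_T2 (K := ZMod p) (V := V) (by omega)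
  rw [hfr, ZMod.card, pow_zero, pow_one] at hcT
  set c := Nat.card (T2 (ZMod p) V) with hc
  have hp2 := hpp.two_le
  have hdvd : c ∣ n * (p ^ n - 1) := dvd_trans ⟨_, hS.symm⟩ (D.card_dvd hn0)
  obtain ⟨d, hd⟩ := hdvd
  have hA1 : p ^ 2 - p = p * (p - 1) := by
    rw [Nat.mul_sub, mul_one, sq]
  have hA2 : p ^ n - p = p * (p ^ (n - 1) - 1) := by
    rw [Nat.mul_sub, mul_one, ← pow_succ']
    congr 2
    omega
  rw [hA1, hA2] at hcT
  have hpos1 : 0 < p ^ n - 1 := by
    have : 1 < p ^ n := Nat.one_lt_pow hn0 hpp.one_lt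
    omega
  have h3 : c * ((p ^ 2 - 1) * (p - 1)) = (p ^ n - 1) * (p ^ (n - 1) - 1) := by
    apply Nat.eq_of_mul_eq_mul_left hpp.pos
    nlinarith [hcT]
  have h4 : n * ((p ^ 2 - 1) * (p - 1)) = (p ^ (n - 1) - 1) * d := by
    apply Nat.eq_of_mul_eq_mul_left hpos1
    calc (p ^ n - 1) * (n * ((p ^ 2 - 1) * (p - 1)))
        = (n * (p ^ n - 1)) * ((p ^ 2 - 1) * (p - 1)) := by ring
      _ = (c * d) * ((p ^ 2 - 1) * (p - 1)) := by rw [hd]
      _ = (c * ((p ^ 2 - 1) * (p - 1))) * d := by ring
      _ = (p ^ n - 1) * ((p ^ (n - 1) - 1) * d) := by rw [h3]; ring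
  have h5 := Cfsg.Agent.Lib.EqConj.Arith.arith p n hp2 hn ⟨d, h4⟩
  rcases h5 with h5 | ⟨h5, h6 | h6⟩
  · exact Or.inl h5
  · exact Or.inr ⟨h5, h6⟩
  · exfalso
    subst h5
    subst h6
    -- the case `3 ^ 5`
    have hc1210 : c = 1210 := by
      norm_num at hcT
      omega
    have hA : Nat.card A = 1210 := by
      have h7 := D.card_dvd hn0
      norm_num at h7
      have h8 : c ∣ Nat.card A := ⟨_, hS.symm⟩
      rw [hc1210] at h8
      exact Nat.dvd_antisymm h7 h8
    have hS1 : Nat.card S = 1 := by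
      rw [hc1210, hA] at hS
      omega
    have hker : Nat.card D.sigmaHom.ker = 242 := by
      have h7 : Nat.card D.sigmaHom.ker ∣ 242 := D.card_ker_dvd hn0
      have h8 := D.card_range_dvd hn0
      have h9 := D.card_eq
      rw [hA] at h9
      have h10 := Nat.le_of_dvd (by norm_num) h7
      have h11 := Nat.le_of_dvd (by norm_num) h8
      set x := Nat.card D.sigmaHom.ker
      set y := Nat.card D.sigmaHom.range
      have : x ≥ 242 := by
        by_contra hlt
        have : x ≤ 241 := by omega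
        nlinarith
      omega
    -- `-1` is in the group
    letI : Fintype (GaloisField 3 5) := Fintype.ofFinite _
    have hunits : Nat.card (GaloisField 3 5)ˣ = 242 := by
      rw [Nat.card_eq_fintype_card, Fintype.card_units, ← Nat.card_eq_fintype_card, card_gf 5 hn0]
      norm_num
    have hbij : Function.Bijective D.aHom :=
      (Nat.bijective_iff_injective_and_card _).mpr ⟨D.aHom_injective, by rw [hker, hunits]⟩
    obtain ⟨h, hh⟩ := hbij.2 (-1)
    have hh1 : D.a h.1 = -1 := by
      have := congrArg Units.val hh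
      simpa [Data.aHom_val] using this
    have hh2 : D.σ h.1 = 1 := h.2
    have hact : ∀ v : V, (h.1 : V ≃ₗ[ZMod 3] V) v = -v := by
      intro v
      apply D.e.injective
      rw [D.spec, hh1, hh2, map_neg]
      simp
    have hmem : h.1 ∈ S := by
      apply hSmem
      intro W
      ext v
      constructor
      · rintro ⟨w, hw, rfl⟩
        show (h.1 : V ≃ₗ[ZMod 3] V) w ∈ W
        rw [hact]
        exact W.neg_mem hw
      · intro hv
        refine ⟨-v, W.neg_mem hv, ?_⟩
        show (h.1 : V ≃ₗ[ZMod 3] V) (-v) = v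
        rw [hact, neg_neg]
    have hS2 : Subsingleton S := by
      haveI : Finite S := by
        haveI : Finite A := Cfsg.Agent.Lib.PermMod.MinNormal.finite_H A
        infer_instance
      exact (Nat.card_eq_one_iff_unique.mp hS1).1
    have h1 : (⟨h.1, hmem⟩ : S) = 1 := Subsingleton.elim _ _
    have h2 : h.1 = 1 := congrArg Subtype.val h1
    have h3' : D.a (1 : A) = 1 := by
      have h5 := (D.mul 1 1).1
      have h6 : D.σ (1 : A) = 1 := by
        have := D.sigmaHom.map_one
        simpa using this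
      rw [mul_one, h6] at h5
      have h7 : D.a (1 : A) * 1 = D.a 1 * D.a 1 := by
        rw [mul_one]
        exact h5
      exact (mul_left_cancel₀ (D.ha 1) h7).symm
    rw [h2, h3'] at hh1
    -- `1 = -1` in characteristic 3
    have h9 : (2 : GaloisField 3 5) = 0 := by
      have : (1 : GaloisField 3 5) + 1 = 0 := by
        nth_rw 1 [hh1]
        simp
      rwa [one_add_one_eq_two] at this
    have h10 : (3 : GaloisField 3 5) = 0 := by
      have := CharP.cast_eq_zero (GaloisField 3 5) 3
      exact_mod_cast this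
    have h11 : (1 : GaloisField 3 5) = 0 := by
      have : (1 : GaloisField 3 5) = 3 - 2 := by norm_num
      rw [this, h9, h10, sub_zero]
    exact one_ne_zero h11

end Cfsg.Agent.Lib.EqConj.Lin
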