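import Cfsg.Agent.Lib.EqConj.Aff

/-!
# The abstract theorem on a normal self-centralizing elementary abelian Hall subgroup
-/

set_option autoImplicit false
set_option linter.unusedSectionVars false
set_option linter.style.haveILetI false

namespace Cfsg.Agent.Lib.EqConj.Main

open Module Subgroup
open Cfsg.Agent.Lib.EqConj.Count Cfsg.Agent.Lib.EqConj.Lin Cfsg.Agent.Lib.EqConj.Exc81
open Cfsg.Agent.Lib.EqConj.Core Cfsg.Agent.Lib.EqConj.Aff

universe u

variable {p : ℕ} [hp : Fact p.Prime] {M : Type u} [Group M] [Finite M] {Q : Subgroup M}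

/-- The transversal count gives a lower bound for the order. -/
theorem c_dvd (hE : Cfsg.IsElementaryAbelian p Q) [hn : Q.Normal] {n : ℕ} (hn2 : 2 ≤ n)
    (hV : Nat.card (VV hE) = p ^ n) (htr : TransS (AA hE)) :
    Nat.card (T2 (ZMod p) (VV hE)) ∣ Nat.card (AA hE) := by
  have hfr := finrank_eq (p := p) (V := VV hE) n hV
  obtain ⟨S, hS, -⟩ := exists_stab (by omega) (AA hE) htr
  exact ⟨_, hS.symm⟩

theorem main_abs (hE : Cfsg.IsElementaryAbelian p Q) [hn : Q.Normal] (n : ℕ) (hn3 : 3 ≤ n)
    (hcard : Nat.card Q = p ^ n) (hcent : centralizer (Q : Set M) ≤ Q)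
    (hcop : Nat.Coprime (Nat.card Q) Q.index) (hsolv : Group.IsSolvable M)
    (htrans : ∀ Q₁ Q₂ : Subgroup M, Q₁ ≤ Q → Q₂ ≤ Q → Nat.card Q₁ = Nat.card Q₂ →
      ∃ m : M, Q₂ = Q₁.map (MulAut.conj m).toMonoidHom) :
    (n = 3 ∧ (∃ f : M →* Cfsg.semiaffineGroup (GaloisField p 3), Function.Injective f) ∧
      (p = 2 → Nonempty (M ≃* Cfsg.semiaffineGroup (GaloisField 2 3)) ∨
               Nonempty (M ≃* Cfsg.affineGroup (GaloisField 2 3)))) ∨
    (n = 5 ∧ p = 2 ∧ Nonempty (M ≃* Cfsg.semiaffineGroup (GaloisField 2 5))) := by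
  classical
  have hpp : p.Prime := Fact.out
  have hQc : Q ≤ centralizer (Q : Set M) := by
    intro x hx
    rw [mem_centralizer_iff]
    intro y hy
    exact congrArg Subtype.val (hE.1.is_comm.comm ⟨y, hy⟩ ⟨x, hx⟩)
  have hker : (rho hE).ker = Q := card_M_eq hE hcent hQc
  have hcardA : Nat.card (AA hE) = Q.index := by
    have h1 := Subgroup.index_ker (rho hE)
    rw [hker] at h1
    exact h1.symm
  have hcardM : Nat.card M = p ^ n * Nat.card (AA hE) := by
    rw [hcardA, ← hcard]
    exact (Subgroup.card_mul_index Q).symm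
  haveI := hsolv
  have hsA : Group.IsSolvable (AA hE) :=
    Group.isSolvable_of_surjective (rho hE).rangeRestrict_surjective
  have hV : Nat.card (VV hE) = p ^ n := (card_VV hE).trans hcard
  have htr := transS_AA hE htrans
  obtain ⟨C, hC⟩ := Subgroup.exists_right_complement'_of_coprime hcop
  rcases step1 n hn3 hV (AA hE) hsA htr with ⟨⟨D⟩⟩ | ⟨rfl, rfl⟩
  swap
  · exact (no_81 hV _ hsA htr).elim
  have hn0 : n ≠ 0 := by omega
  let f : M →* Cfsg.semiaffineGroup (GaloisField p n) :=
    (phi hE D hC hker).codRestrict _ (phi_mem hE D hC hker)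
  have hf : Function.Injective f := by
    intro a b hab
    exact phi_inj hE D hC hker (congrArg Subtype.val hab)
  have hcd := c_dvd hE (by omega) hV htr
  have hAdvd := D.card_dvd hn0
  have hcT := card_T2 (K := ZMod p) (V := VV hE) (by rw [finrank_eq (p := p) (V := VV hE) n hV]; omega)
  rw [finrank_eq (p := p) (V := VV hE) n hV, ZMod.card, pow_zero, pow_one] at hcT
  haveI : Finite (AA hE) := Finite.of_surjective _ (rho hE).rangeRestrict_surjective
  have hApos : 0 < Nat.card (AA hE) := Nat.card_pos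
  rcases dim_of_data hn3 hV htr D with rfl | ⟨rfl, rfl⟩
  · refine Or.inl ⟨rfl, ⟨f, hf⟩, ?_⟩
    rintro rfl
    have hc7 : Nat.card (T2 (ZMod 2) (VV hE)) = 7 := by
      generalize Nat.card (T2 (ZMod 2) (VV hE)) = c at hcT
      norm_num at hcT
      omega
    rw [hc7] at hcd
    rw [show (3 * (2 ^ 3 - 1) : ℕ) = 21 by norm_num] at hAdvd
    obtain ⟨k, hk⟩ := hcd
    rw [hk] at hAdvd
    have hk3 : k ∣ 3 := by
      have : 7 * k ∣ 7 * 3 := by simpa using hAdvd
      exact (Nat.mul_dvd_mul_iff_left (by norm_num)).mp this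
    have hk' : k = 1 ∨ k = 3 := (Nat.dvd_prime Nat.prime_three).mp hk3
    rcases hk' with rfl | rfl
    · -- order 7: the affine group
      right
      have hA7 : Nat.card (AA hE) = 7 := by simpa using hk
      have hr1 : Nat.card D.sigmaHom.range = 1 := by
        have h1 := D.card_range_dvd hn0
        have h2 : Nat.card D.sigmaHom.range ∣ Nat.card (AA hE) := ⟨_, by
          rw [← D.card_eq, mul_comm]⟩
        rw [hA7] at h2
        exact Nat.eq_one_of_dvd_coprimes (by norm_num : Nat.Coprime 3 7) h1 h2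
      have hs : ∀ m, sM hE D m = 1 := by
        intro m
        have h1 : D.sigmaHom.range = ⊥ := Subgroup.eq_bot_of_card_eq _ hr1
        have h2 : D.sigmaHom ((rho hE).rangeRestrict m) ∈ D.sigmaHom.range := ⟨_, rfl⟩
        rw [h1] at h2
        exact h2
      let g : M →* Cfsg.affineGroup (GaloisField 2 3) :=
        (phi hE D hC hker).codRestrict _ (phi_mem_aff hE D hC hker hs)
      have hg : Function.Injective g := by
        intro a b hab
        exact phi_inj hE D hC hker (congrArg Subtype.val hab)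
      refine ⟨MulEquiv.ofBijective g ((Nat.bijective_iff_injective_and_card g).mpr ⟨hg, ?_⟩)⟩
      apply le_antisymm (Nat.card_le_card_of_injective g hg)
      have h1 := card_aff_le (GaloisField 2 3)
      rw [card_gf 3 (by norm_num)] at h1
      rw [hcardM, hA7]
      norm_num at h1 ⊢
      omega
    · -- order 21: the semi-affine group
      left
      have hA21 : Nat.card (AA hE) = 21 := by simpa using hk
      refine ⟨MulEquiv.ofBijective f ((Nat.bijective_iff_injective_and_card f).mpr ⟨hf, ?_⟩)⟩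
      apply le_antisymm (Nat.card_le_card_of_injective f hf)
      have h1 := card_semi_le (GaloisField 2 3)
      rw [card_gf 3 (by norm_num), card_ringEquiv 3 (by norm_num)] at h1
      rw [hcardM, hA21]
      norm_num at h1 ⊢
      omega
  · refine Or.inr ⟨rfl, rfl, ?_⟩
    have hc155 : Nat.card (T2 (ZMod 2) (VV hE)) = 155 := by
      generalize Nat.card (T2 (ZMod 2) (VV hE)) = c at hcT
      norm_num at hcT
      omega
    rw [hc155] at hcd
    rw [show (5 * (2 ^ 5 - 1) : ℕ) = 155 by norm_num] at hAdvd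
    have hA : Nat.card (AA hE) = 155 := Nat.dvd_antisymm hAdvd hcd
    refine ⟨MulEquiv.ofBijective f ((Nat.bijective_iff_injective_and_card f).mpr ⟨hf, ?_⟩)⟩
    apply le_antisymm (Nat.card_le_card_of_injective f hf)
    have h1 := card_semi_le (GaloisField 2 5)
    rw [card_gf 5 (by norm_num), card_ringEquiv 5 (by norm_num)] at h1
    rw [hcardM, hA]
    norm_num at h1 ⊢
    omega

end Cfsg.Agent.Lib.EqConj.Main
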