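import Cfsg.Agent.Lib.EqConj.Main
import Cfsg.Agent.Lib.Core.Basic

/-!
# Reduction to the quotient of the normalizer
-/

set_option autoImplicit false
set_option linter.unusedSectionVars false
set_option linter.style.haveILetI false

namespace Cfsg.Agent.Lib.EqConj.Red

open Subgroup Cfsg.Agent.Lib.Core.Basic Cfsg.Agent.Lib.EqConj.Main

universe u

section N

variable {p : ℕ} [hp : Fact p.Prime] {N : Type u} [Group N] [Finite N] {P₀ : Subgroup N}

/-- The centralizer of a central normal Sylow subgroup lies in `P₀ O_{p'}`. -/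
theorem centralizer_le [hP₀ : P₀.Normal] (hc : IsMulCommutative P₀) (hpg : IsPGroup p P₀)
    (hs : ¬ p ∣ P₀.index) : centralizer (P₀ : Set N) ≤ P₀ ⊔ Cfsg.pPrimeCore p N := by
  classical
  have hpp : p.Prime := Fact.out
  have hcomm : ∀ a ∈ P₀, ∀ b ∈ P₀, a * b = b * a := fun a ha b hb =>
    congrArg Subtype.val (hc.is_comm.comm ⟨a, ha⟩ ⟨b, hb⟩)
  set C := centralizer (P₀ : Set N) with hC
  have hPC : P₀ ≤ C := by
    intro x hx
    rw [hC, mem_centralizer_iff]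
    intro y hy
    exact hcomm y hy x hx
  haveI hCn : C.Normal := Subgroup.normal_centralizer
  let S : Subgroup C := P₀.subgroupOf C
  haveI : S.Normal := inferInstance
  have hcS : Nat.card S = Nat.card P₀ := Nat.card_congr (subgroupOfEquivOfLe hPC).toEquiv
  have hiS : S.index ∣ P₀.index := relIndex_dvd_index_of_normal P₀ C
  have hpS : ¬ p ∣ S.index := fun h => hs (h.trans hiS)
  have hcop : Nat.Coprime (Nat.card S) S.index := by
    obtain ⟨k, hk⟩ := IsPGroup.iff_card.mp hpg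
    rw [hcS, hk]
    exact Nat.Coprime.pow_left _ ((Nat.Prime.coprime_iff_not_dvd hpp).mpr hpS)
  obtain ⟨L, hL⟩ := Subgroup.exists_right_complement'_of_coprime hcop
  have hLn : L.Normal := by
    constructor
    intro l hl c
    obtain ⟨⟨s, t⟩, hst⟩ := hL.2 c
    have hst' : (s : C) * (t : C) = c := hst
    have hsc : ∀ y : C, (s : C) * y = y * (s : C) := by
      intro y
      apply Subtype.ext
      have h1 : ((s : C) : N) ∈ P₀ := s.2
      exact mem_centralizer_iff.mp y.2 _ h1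
    rw [← hst']
    have : (s : C) * (t : C) * l * ((s : C) * (t : C))⁻¹ = (t : C) * l * (t : C)⁻¹ := by
      rw [show (s : C) * (t : C) * l * ((s : C) * (t : C))⁻¹ =
        (s : C) * ((t : C) * l * (t : C)⁻¹) * (s : C)⁻¹ by group, hsc, mul_inv_cancel_right]
    rw [this]
    exact L.mul_mem (L.mul_mem t.2 hl) (L.inv_mem t.2)
  have hLc : (Nat.card L).Coprime p := by
    rw [← hL.symm.index_eq_card]
    exact ((Nat.Prime.coprime_iff_not_dvd hpp).mpr hpS).symm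
  have hL1 : L ≤ Cfsg.pPrimeCore p C := le_pPrimeCore hLn hLc
  have hL2 : L.map C.subtype ≤ Cfsg.pPrimeCore p N :=
    (map_mono hL1).trans (map_pPrimeCore_le_of_isSubnormal hCn.isSubnormal)
  intro y hy
  obtain ⟨⟨s, t⟩, hst⟩ := hL.2 (⟨y, hy⟩ : C)
  have hst' : ((s : C) : N) * ((t : C) : N) = y := congrArg Subtype.val hst
  rw [← hst']
  apply Subgroup.mul_mem
  · exact (le_sup_left : P₀ ≤ _) s.2
  · exact (le_sup_right : _ ≤ P₀ ⊔ Cfsg.pPrimeCore p N) (hL2 ⟨_, t.2, rfl⟩)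

/-- the quotient map -/
noncomputable abbrev pi (p : ℕ) (N : Type u) [Group N] : N →* N ⧸ Cfsg.pPrimeCore p N :=
  QuotientGroup.mk' (Cfsg.pPrimeCore p N)

theorem pi_surj : Function.Surjective (pi p N) := QuotientGroup.mk'_surjective _

theorem inf_core (hpg : IsPGroup p P₀) : P₀ ⊓ Cfsg.pPrimeCore p N = ⊥ :=
  inf_eq_bot_of_isPGroup_of_coprime hpg pPrimeCore_coprime

theorem pi_eq_one {x : N} (hx : x ∈ P₀) (hpg : IsPGroup p P₀) (h : pi p N x = 1) : x = 1 := by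
  have h1 : x ∈ Cfsg.pPrimeCore p N := by
    rwa [MonoidHom.mem_ker.symm.trans (by rw [QuotientGroup.ker_mk'])] at h
  have h2 : x ∈ P₀ ⊓ Cfsg.pPrimeCore p N := ⟨hx, h1⟩
  rw [inf_core hpg] at h2
  exact h2

theorem pi_inj_on {x y : N} (hx : x ∈ P₀) (hy : y ∈ P₀) (hpg : IsPGroup p P₀)
    (h : pi p N x = pi p N y) : x = y := by
  have h1 : pi p N (x⁻¹ * y) = 1 := by
    rw [map_mul, map_inv, h, inv_mul_cancel]
  have h2 := pi_eq_one (P₀.mul_mem (P₀.inv_mem hx) hy) hpg h1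
  exact (inv_mul_eq_one.mp h2)

theorem card_map_pi (hpg : IsPGroup p P₀) {R : Subgroup N} (hR : R ≤ P₀) :
    Nat.card (R.map (pi p N)) = Nat.card R := by
  symm
  apply Nat.card_congr
  refine Equiv.ofBijective (fun x : R => (⟨pi p N x, mem_map_of_mem _ x.2⟩ : R.map (pi p N))) ⟨?_, ?_⟩
  · intro a b hab
    exact Subtype.ext (pi_inj_on (hR a.2) (hR b.2) hpg (congrArg Subtype.val hab))
  · rintro ⟨_, x, hx, rfl⟩
    exact ⟨⟨x, hx⟩, rfl⟩

theorem reduct_N [hP₀ : P₀.Normal] (hc : IsMulCommutative P₀) (hpow : ∀ x ∈ P₀, x ^ p = 1)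
    (hs : ¬ p ∣ P₀.index) (n : ℕ) (hn : 3 ≤ n) (hcard : Nat.card P₀ = p ^ n)
    (hsolv : Group.IsSolvable (N ⧸ Cfsg.pPrimeCore p N))
    (htr : ∀ R₁ R₂ : Subgroup N, R₁ ≤ P₀ → R₂ ≤ P₀ → Nat.card R₁ = Nat.card R₂ →
      ∃ g : N, R₂ = R₁.map (MulAut.conj g).toMonoidHom) :
    (n = 3 ∧ (∃ f : N ⧸ Cfsg.pPrimeCore p N →* Cfsg.semiaffineGroup (GaloisField p 3),
        Function.Injective f) ∧
      (p = 2 → Nonempty (N ⧸ Cfsg.pPrimeCore p N ≃* Cfsg.semiaffineGroup (GaloisField 2 3)) ∨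
               Nonempty (N ⧸ Cfsg.pPrimeCore p N ≃* Cfsg.affineGroup (GaloisField 2 3)))) ∨
    (n = 5 ∧ p = 2 ∧ Nonempty (N ⧸ Cfsg.pPrimeCore p N ≃* Cfsg.semiaffineGroup (GaloisField 2 5))) := by
  classical
  have hpp : p.Prime := Fact.out
  have hpg : IsPGroup p P₀ := IsPGroup.of_card hcard
  let Q : Subgroup (N ⧸ Cfsg.pPrimeCore p N) := P₀.map (pi p N)
  haveI hQn : Q.Normal := hP₀.map _ pi_surj
  have hE : Cfsg.IsElementaryAbelian p Q := by
    refine ⟨⟨⟨?_⟩⟩, ?_⟩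
    · rintro ⟨_, x, hx, rfl⟩ ⟨_, y, hy, rfl⟩
      apply Subtype.ext
      show pi p N x * pi p N y = pi p N y * pi p N x
      rw [← map_mul, ← map_mul]
      exact congrArg _ (congrArg Subtype.val (hc.is_comm.comm ⟨x, hx⟩ ⟨y, hy⟩))
    · rintro _ ⟨x, hx, rfl⟩
      rw [← map_pow, hpow x hx, map_one]
  have hcQ : Nat.card Q = p ^ n := (card_map_pi hpg le_rfl).trans hcard
  have hcent : centralizer (Q : Set (N ⧸ Cfsg.pPrimeCore p N)) ≤ Q := by
    intro m hm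
    obtain ⟨g, rfl⟩ := pi_surj m
    have hg : g ∈ centralizer (P₀ : Set N) := by
      rw [mem_centralizer_iff]
      intro x hx
      have h1 : pi p N x * pi p N g = pi p N g * pi p N x :=
        mem_centralizer_iff.mp hm _ (mem_map_of_mem _ hx)
      have h2 : g * x * g⁻¹ * x⁻¹ ∈ P₀ := P₀.mul_mem (hP₀.conj_mem x hx g) (P₀.inv_mem hx)
      have h3 : pi p N (g * x * g⁻¹ * x⁻¹) = 1 := by
        simp only [map_mul, map_inv]
        rw [← h1]
        group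
      have h4 := pi_eq_one h2 hpg h3
      have h5 : g * x * g⁻¹ = x := mul_inv_eq_one.mp h4
      exact (mul_inv_eq_iff_eq_mul.mp h5).symm
    have h3 := centralizer_le hc hpg hs hg
    have h4 : pi p N g ∈ (P₀ ⊔ Cfsg.pPrimeCore p N).map (pi p N) := mem_map_of_mem _ h3
    rw [Subgroup.map_sup] at h4
    have h5 : (Cfsg.pPrimeCore p N).map (pi p N) = ⊥ := QuotientGroup.map_mk'_self _
    rwa [h5, sup_bot_eq] at h4
  have hsQ : ¬ p ∣ Q.index := fun h => hs (h.trans (index_map_dvd _ pi_surj))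
  have hcop : Nat.Coprime (Nat.card Q) Q.index := by
    rw [hcQ]
    exact Nat.Coprime.pow_left _ ((Nat.Prime.coprime_iff_not_dvd hpp).mpr hsQ)
  refine main_abs hE n hn hcQ hcent hcop hsolv ?_
  intro Q₁ Q₂ h₁ h₂ hcd
  have hpull : ∀ T : Subgroup (N ⧸ Cfsg.pPrimeCore p N), T ≤ Q →
      ∃ R : Subgroup N, R ≤ P₀ ∧ R.map (pi p N) = T := by
    intro T hT
    refine ⟨T.comap (pi p N) ⊓ P₀, inf_le_right, ?_⟩
    ext y
    constructor
    · rintro ⟨x, hx, rfl⟩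
      exact hx.1
    · intro hy
      obtain ⟨x, hx, rfl⟩ := hT hy
      exact ⟨x, ⟨hy, hx⟩, rfl⟩
  obtain ⟨R₁, hR₁, rfl⟩ := hpull Q₁ h₁
  obtain ⟨R₂, hR₂, rfl⟩ := hpull Q₂ h₂
  rw [card_map_pi hpg hR₁, card_map_pi hpg hR₂] at hcd
  obtain ⟨g, hg⟩ := htr R₁ R₂ hR₁ hR₂ hcd
  refine ⟨pi p N g, ?_⟩
  rw [hg]
  ext y
  simp only [mem_map]
  constructor
  · rintro ⟨_, ⟨x, hx, rfl⟩, rfl⟩
    exact ⟨pi p N x, ⟨x, hx, rfl⟩, by simp [map_mul, map_inv]⟩
  · rintro ⟨_, ⟨x, hx, rfl⟩, rfl⟩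
    exact ⟨(MulAut.conj g).toMonoidHom x, ⟨x, hx, rfl⟩, by simp [map_mul, map_inv]⟩

end N

section G

variable {p : ℕ} [hp : Fact p.Prime] {G : Type u} [Group G] [Finite G]

/-- Burnside's fusion lemma for subgroups of an abelian Sylow subgroup. -/
theorem fusion (P : Sylow p G) (hab : IsMulCommutative (P : Subgroup G)) {R₁ R₂ : Subgroup G}
    (h₁ : R₁ ≤ P) (h₂ : R₂ ≤ P) (g : G) (hg : R₂ = R₁.map (MulAut.conj g).toMonoidHom) :
    ∃ n ∈ normalizer ((P : Subgroup G) : Set G), R₂ = R₁.map (MulAut.conj n).toMonoidHom := by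
  classical
  have hcomm : ∀ a ∈ (P : Subgroup G), ∀ b ∈ (P : Subgroup G), a * b = b * a := fun a ha b hb =>
    congrArg Subtype.val (hab.is_comm.comm ⟨a, ha⟩ ⟨b, hb⟩)
  have h1 : P ≤ centralizer (R₂ : Set G) := by
    intro x hx
    rw [mem_centralizer_iff]
    intro y hy
    exact hcomm y (h₂ hy) x hx
  have h2 : ↑(g • P) ≤ centralizer (R₂ : Set G) := by
    rintro _ ⟨x, hx, rfl⟩
    rw [mem_centralizer_iff]
    intro y hy
    rw [hg] at hy
    obtain ⟨z, hz, rfl⟩ := hy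
    have := hcomm z (h₁ hz) x hx
    show g * z * g⁻¹ * (g * x * g⁻¹) = g * x * g⁻¹ * (g * z * g⁻¹)
    have h3 : g * z * g⁻¹ * (g * x * g⁻¹) = g * (z * x) * g⁻¹ := by group
    have h4 : g * x * g⁻¹ * (g * z * g⁻¹) = g * (x * z) * g⁻¹ := by group
    rw [h3, h4, this]
  obtain ⟨h, hh⟩ :=
    MulAction.exists_smul_eq (centralizer (R₂ : Set G)) ((g • P).subtype h2) (P.subtype h1)
  simp_rw [Sylow.smul_subtype, Subgroup.smul_def, smul_smul] at hh
  refine ⟨h * g, Sylow.smul_eq_iff_mem_normalizer.mp (Sylow.subtype_injective hh), ?_⟩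
  have hkey : ∀ z ∈ R₁, (h : G) * g * z * ((h : G) * g)⁻¹ = g * z * g⁻¹ := by
    intro z hz
    have h5 : g * z * g⁻¹ ∈ R₂ := by
      rw [hg]
      exact ⟨z, hz, rfl⟩
    have h6 := mem_centralizer_iff.mp h.2 _ h5
    rw [show (h : G) * g * z * ((h : G) * g)⁻¹ = (h : G) * (g * z * g⁻¹) * (h : G)⁻¹ by group, ← h6]
    group
  ext y
  constructor
  · intro hy
    have hy' : y ∈ R₁.map (MulAut.conj g).toMonoidHom := hg ▸ hy
    obtain ⟨z, hz, rfl⟩ := hy'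
    exact ⟨z, hz, hkey z hz⟩
  · rintro ⟨z, hz, rfl⟩
    have h7 : ((MulAut.conj ((h : G) * g)).toMonoidHom z) = g * z * g⁻¹ := hkey z hz
    rw [h7, hg]
    exact ⟨z, hz, rfl⟩

/-- The reduction theorem. -/
theorem reduct_G (hC : ∀ H K : Subgroup G, IsPGroup p H → IsPGroup p K → Nat.card H = Nat.card K →
      ∃ g : G, K = H.map (MulAut.conj g).toMonoidHom) (P : Sylow p G) (n : ℕ) (hn : 3 ≤ n)
    (hel : Cfsg.IsElementaryAbelian p (P : Subgroup G)) (hcard : Nat.card P = p ^ n)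
    (N : Subgroup G) (hN : N = Subgroup.normalizer ((P : Subgroup G) : Set G))
    (hsolv : Group.IsSolvable (↥N ⧸ Cfsg.pPrimeCore p ↥N)) :
    (n = 3 ∧ (∃ f : ↥N ⧸ Cfsg.pPrimeCore p ↥N →* ↥(Cfsg.semiaffineGroup (GaloisField p 3)), Function.Injective f) ∧
      (p = 2 → Nonempty (↥N ⧸ Cfsg.pPrimeCore p ↥N ≃* Cfsg.semiaffineGroup (GaloisField 2 3)) ∨
               Nonempty (↥N ⧸ Cfsg.pPrimeCore p ↥N ≃* Cfsg.affineGroup (GaloisField 2 3)))) ∨
    (n = 5 ∧ p = 2 ∧ Nonempty (↥N ⧸ Cfsg.pPrimeCore p ↥N ≃* Cfsg.semiaffineGroup (GaloisField 2 5))) := by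
  classical
  subst hN
  set N := normalizer ((P : Subgroup G) : Set G) with hNdef
  have hle : (P : Subgroup G) ≤ N := Subgroup.le_normalizer
  haveI hP₀ : ((P : Subgroup G).subgroupOf N).Normal := Subgroup.normal_in_normalizer
  have hcard₀ : Nat.card ((P : Subgroup G).subgroupOf N) = p ^ n :=
    (Nat.card_congr (subgroupOfEquivOfLe hle).toEquiv).trans hcard
  have hc : IsMulCommutative ((P : Subgroup G).subgroupOf N) := by
    refine ⟨⟨?_⟩⟩
    rintro ⟨⟨a, ha'⟩, ha⟩ ⟨⟨b, hb'⟩, hb⟩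
    apply Subtype.ext
    apply Subtype.ext
    have h1 : a * b = b * a :=
      congrArg Subtype.val (hel.1.is_comm.comm ⟨a, mem_subgroupOf.mp ha⟩ ⟨b, mem_subgroupOf.mp hb⟩)
    exact h1
  have hpow : ∀ x ∈ (P : Subgroup G).subgroupOf N, x ^ p = 1 := by
    intro x hx
    apply Subtype.ext
    exact hel.2 _ (mem_subgroupOf.mp hx)
  have hs : ¬ p ∣ ((P : Subgroup G).subgroupOf N).index := fun h =>
    P.not_dvd_index (h.trans (relIndex_dvd_index_of_le hle))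
  refine reduct_N hc hpow hs n hn hcard₀ hsolv ?_
  intro R₁ R₂ h₁ h₂ hcd
  have hinj : Function.Injective N.subtype := N.subtype_injective
  have hcm : ∀ R : Subgroup N, Nat.card (R.map N.subtype) = Nat.card R := fun R =>
    (Nat.card_congr (R.equivMapOfInjective _ hinj).toEquiv).symm
  have hleP : ∀ R : Subgroup N, R ≤ (P : Subgroup G).subgroupOf N → R.map N.subtype ≤ P := by
    rintro R hR _ ⟨x, hx, rfl⟩
    exact mem_subgroupOf.mp (hR hx)
  obtain ⟨g, hg⟩ := hC (R₁.map N.subtype) (R₂.map N.subtype) (P.isPGroup'.to_le (hleP _ h₁))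
    (P.isPGroup'.to_le (hleP _ h₂)) (by rw [hcm, hcm, hcd])
  obtain ⟨m, hm, hm'⟩ := fusion P hel.1 (hleP _ h₁) (hleP _ h₂) g hg
  refine ⟨⟨m, hm⟩, ?_⟩
  ext y
  constructor
  · intro hy
    have h1 : (y : G) ∈ (R₁.map N.subtype).map (MulAut.conj m).toMonoidHom := by
      rw [← hm']
      exact ⟨y, hy, rfl⟩
    obtain ⟨_, ⟨z, hz, rfl⟩, hz'⟩ := h1
    exact ⟨z, hz, Subtype.ext hz'⟩
  · rintro ⟨z, hz, rfl⟩
    have h1 : (m * (z : G) * m⁻¹) ∈ (R₁.map N.subtype).map (MulAut.conj m).toMonoidHom :=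
      ⟨_, ⟨z, hz, rfl⟩, rfl⟩
    rw [← hm'] at h1
    obtain ⟨w, hw, hw'⟩ := h1
    have h2 : w = (MulAut.conj (⟨m, hm⟩ : N)).toMonoidHom z := Subtype.ext hw'
    rwa [← h2]

end G

end Cfsg.Agent.Lib.EqConj.Red
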